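import Mathlib

/-! Arithmetic and a small group lemma for the rank three Frobenius problem. -/

set_option autoImplicit false

namespace Cfsg.Lib.R3F

open Finset

theorem r3_arith_b (t u : ℕ) (θ τ : ℤ) (ht : 2 ≤ t) (hu : Even u) (hu0 : 0 < u) (hlt : τ < θ)
    (hs : θ + τ = (t * u : ℕ) - u) (hp : θ * τ = u - (2 * (t * u) + 1 : ℕ)) : False := by
  push_cast at hs hp
  have ht' : (2 : ℤ) ≤ t := by exact_mod_cast ht
  have hu' : (1 : ℤ) ≤ u := by exact_mod_cast hu0
  have htu : (2 : ℤ) * u ≤ t * u := by nlinarith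
  have hτ : τ < 0 := by
    by_contra h
    push Not at h
    nlinarith [mul_nonneg h (le_of_lt (lt_of_le_of_lt h hlt))]
  have hθ : θ = t * u - u - τ := by linarith
  subst hθ
  obtain ⟨w, hw⟩ := hu
  rcases (by omega : τ = -1 ∨ τ = -2 ∨ τ ≤ -3) with rfl | rfl | h
  · nlinarith
  · have : (u : ℤ) = 3 := by linarith
    omega
  · nlinarith

set_option maxHeartbeats 1000000 in
theorem r3_arith_fin (t u μ θ f0 g0 e1 e2 : ℕ) (ht : Even t) (hu : Even u) (ht4 : 4 ≤ t)
    (ht12 : t ≤ 12) (hθ1 : 1 ≤ θ) (hθt : θ + 2 ≤ t) (hq : θ * θ + θ * μ + μ = t * μ + 1)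
    (hfg0 : f0 + g0 = t + 1) (hA : (t + 2) * e1 + (μ + θ) * g0 = t * μ + 1 + θ * f0)
    (hc : (t + 2) * e1 + (t + 2) * t * e2 = t * μ * (t + 1)) (he : 4 * e2 ≤ 3 * μ)
    (hdvd : t + 2 ∣ 2 * μ) (hr : μ = 2 * u ∨ μ = u) (hμ2 : 2 ≤ μ) : False := by
  obtain ⟨w, hw⟩ := hu
  obtain ⟨w', hw'⟩ := ht
  have hθ12 : θ ≤ 10 := by omega
  have hμ : μ = (θ * θ - 1) / (t - 1 - θ) := by
    obtain ⟨h, rfl⟩ : ∃ h, t = θ + 2 + h := ⟨t - θ - 2, by omega⟩
    rw [show θ + 2 + h - 1 - θ = h + 1 by omega]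
    refine (Nat.div_eq_of_eq_mul_right (by omega) ?_).symm
    have : (θ + 2 + h) * μ = θ * μ + μ + (h + 1) * μ := by ring
    omega
  interval_cases t <;> (try omega) <;> interval_cases θ <;> norm_num at hμ <;> subst hμ <;> omega

theorem r3_arith_a (t u μ f0 g0 f g e1 e2 : ℕ) (θ τ : ℤ) (ht : Even t) (ht0 : 0 < t) (hu : Even u)
    (hu0 : 0 < u) (hlt : τ < θ) (hs : θ + τ = -μ) (hp : θ * τ = μ - (t * μ + 1 : ℕ))
    (hfg0 : f0 + g0 = t + 1) (hA : ((t + 2) * e1 : ℕ) = (t * μ + 1 : ℕ) + θ * f0 + τ * g0)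
    (hc : (t + 2) * e1 + (t + 2) * t * e2 = t * μ * (t + 1))
    (hfg : (t * μ + 1) + (t * μ + 1) * t = f + g) (hfg' : (t * μ + 1 : ℕ) + θ * f + τ * g = 0)
    (hr : (μ = 2 * u ∧ e2 ≤ u) ∨ (μ = u ∧ 4 * e2 ≤ 3 * u ∧ (u = 4 → e2 ≠ 3) ∧ t * μ + 1 ≠ 21)) :
    t = 2 ∧ μ = 2 := by
  have ht2 : 2 ≤ t := by obtain ⟨w, hw⟩ := ht; omega
  have hμ2 : 2 ≤ μ := by obtain ⟨w, hw⟩ := hu; omega
  have he : 4 * e2 ≤ 3 * μ := by omega
  have hdvd : t + 2 ∣ 2 * μ := by
    have h1 : t + 2 ∣ t * μ * (t + 1) := ⟨e1 + t * e2, by rw [← hc]; ring⟩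
    obtain ⟨t', rfl⟩ : ∃ t', t = t' + 1 := ⟨t - 1, by omega⟩
    have h2 : (t' + 1) * μ * (t' + 1 + 1) = (t' + 1 + 2) * (t' * μ) + 2 * μ := by ring
    rw [h2] at h1
    exact (Nat.dvd_add_right (dvd_mul_right _ _)).1 h1
  have hle : t + 2 ≤ 2 * μ := Nat.le_of_dvd (by omega) hdvd
  have hτ : τ = -μ - θ := by linarith
  subst hτ
  push_cast at hp hA hfg'
  have ht' : (2 : ℤ) ≤ t := by exact_mod_cast ht2
  have hμ' : (2 : ℤ) ≤ μ := by exact_mod_cast hμ2
  have hθ0 : 0 < θ := by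
    by_contra h
    push Not at h
    nlinarith [mul_nonneg_of_nonpos_of_nonpos h (le_of_lt (lt_of_lt_of_le hlt h))]
  obtain ⟨θ, rfl⟩ := Int.eq_ofNat_of_zero_le hθ0.le
  have hθ1 : 1 ≤ θ := by exact_mod_cast hθ0
  have hq : θ * θ + θ * μ + μ = t * μ + 1 := by
    have : (θ : ℤ) * θ + θ * μ + μ = t * μ + 1 := by linarith
    exact_mod_cast this
  have hA' : (t + 2) * e1 + (μ + θ) * g0 = t * μ + 1 + θ * f0 := by
    have : ((t : ℤ) + 2) * e1 + (μ + θ) * g0 = t * μ + 1 + θ * f0 := by linarith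
    exact_mod_cast this
  have hB' : t * μ + 1 + θ * f = (μ + θ) * g := by
    have : (t : ℤ) * μ + 1 + θ * f = (μ + θ) * g := by linarith
    exact_mod_cast this
  clear hp hA hfg' hs hlt hθ0 ht' hμ'
  by_cases h2 : t = 2
  · subst h2
    have : θ = 1 := by nlinarith
    subst this
    have h12 : μ + 2 ∣ 12 := by
      have h1 : (μ + 2) * g = (μ + 2) * 8 - 12 := by
        have : (μ + 1) * g + g = (μ + 2) * g := by ring
        omega
      have h2 : μ + 2 ∣ (μ + 2) * 8 - 12 := h1 ▸ dvd_mul_right _ _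
      have h3 : 12 ≤ (μ + 2) * 8 := by omega
      exact (Nat.dvd_sub_iff_right h3 (dvd_mul_right _ _)).1 h2
    have := Nat.le_of_dvd (by norm_num) h12
    obtain ⟨w, hw⟩ := hu
    have : μ ≤ 10 := by omega
    interval_cases μ <;> omega
  · exfalso
    have ht4 : 4 ≤ t := by obtain ⟨w, hw⟩ := ht; omega
    have hθt : θ + 2 ≤ t := by
      by_contra h
      have : t ≤ θ + 1 := by omega
      nlinarith
    have hf0 : f0 ≤ t + 1 := by omega
    have h1 : (t + 2) * e1 ≤ t * μ + 1 + θ * (t + 1) := by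
      nlinarith [Nat.mul_le_mul_left θ hf0, Nat.zero_le ((μ + θ) * g0)]
    have h3 : 4 * ((t + 2) * t * e2) ≤ (t + 2) * t * (3 * μ) := by
      nlinarith [Nat.mul_le_mul_left ((t + 2) * t) he]
    have ht12 : t ≤ 12 := by
      by_contra h
      obtain ⟨t', rfl⟩ : ∃ t', t = t' + 13 := ⟨t - 13, by omega⟩
      have h4 : θ * (t' + 13 + 1) ≤ (t' + 11) * (t' + 14) := Nat.mul_le_mul (by omega) (by omega)
      have h5 : (t' + 13) * (t' + 7) * (t' + 15) ≤ (t' + 13) * (t' + 7) * (2 * μ) :=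
        Nat.mul_le_mul_left _ hle
      nlinarith
    exact r3_arith_fin t u μ θ f0 g0 e1 e2 ht hu ht4 ht12 hθ1 hθt hq hfg0 hA' hc he hdvd
      (by omega) hμ2

theorem r3_three_quarters {G : Type*} [Group G] [Finite G] (U : Subgroup G) (j : G) (hj : j * j = 1)
    (I : Finset G) (hI : ∀ w ∈ I, w ∈ U ∧ j * w * j = w⁻¹)
    (h : 3 * Nat.card U < 4 * I.card ∨
      ((∀ a ∈ U, ∀ b ∈ U, a * b = b * a) ∧ Nat.card U < 2 * I.card)) :
    ∀ w ∈ U, j * w * j = w⁻¹ := by
  classical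
  have hjj : ∀ a b : G, j * (a * b) * j = (j * a * j) * (j * b * j) := fun a b => by
    calc j * (a * b) * j = j * a * (j * j) * b * j := by rw [hj]; group
      _ = _ := by group
  have half : ∀ (V : Subgroup G) (T : Finset G), V ≤ U → (∀ w ∈ T, w ∈ V) →
      Nat.card U < 2 * T.card → U ≤ V := by
    intro V T hV hT hc
    have h1 : T.card ≤ Nat.card V := by
      rw [← Nat.card_eq_finsetCard]
      exact Nat.card_le_card_of_injective (fun w => ⟨w.1, hT _ w.2⟩)
        fun a b e => Subtype.ext (congrArg (fun z : V => (z : G)) e)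
    obtain ⟨d, hd⟩ := Subgroup.card_dvd_of_le hV
    have hpos : 0 < Nat.card U := Nat.card_pos
    have : d = 1 := by
      rcases d with _ | _ | d
      · omega
      · rfl
      · nlinarith
    exact (Subgroup.eq_of_le_of_card_ge hV (by rw [hd, this, mul_one])).ge
  have hcomm : ∀ a ∈ U, ∀ b ∈ U, a * b = b * a := by
    rcases h with h | h
    · have hU : (Set.toFinite (U : Set G)).toFinset.card = Nat.card U := by
        rw [← Set.ncard_eq_toFinset_card, ← Nat.card_coe_set_eq]; rfl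
      have hcen : ∀ x ∈ I, U ≤ U ⊓ Subgroup.centralizer {x} := fun x hx => by
        refine half _ (I ∩ I.image fun w => x⁻¹ * w) inf_le_left (fun y hy => ?_) ?_
        · obtain ⟨h1, h2⟩ := mem_inter.1 hy
          obtain ⟨w, hw, rfl⟩ := mem_image.1 h2
          refine ⟨(hI _ h1).1, Subgroup.mem_centralizer_singleton_iff.2 ?_⟩
          have e := hjj x (x⁻¹ * w)
          rw [(hI _ hx).2, (hI _ h1).2, mul_inv_cancel_left, (hI _ hw).2, ← mul_inv_rev] at e
          rw [← inv_injective e, mul_inv_cancel_left]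
        · have h1 := card_union_add_card_inter I (I.image fun w => x⁻¹ * w)
          rw [card_image_of_injective _ (mul_right_injective _)] at h1
          have h2 : (I ∪ I.image fun w => x⁻¹ * w).card ≤ Nat.card U := by
            rw [← hU]
            refine card_le_card fun y hy => (Set.Finite.mem_toFinset _).2 ?_
            rcases mem_union.1 hy with hy | hy
            · exact (hI _ hy).1
            · obtain ⟨w, hw, rfl⟩ := mem_image.1 hy
              exact U.mul_mem (U.inv_mem (hI _ hx).1) (hI _ hw).1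
          omega
      have := half (U ⊓ Subgroup.centralizer (U : Set G)) I inf_le_left (fun x hx =>
        ⟨(hI x hx).1, fun y hy => Subgroup.mem_centralizer_singleton_iff.1 (hcen x hx hy).2⟩)
        (by omega)
      exact fun a ha b hb => (this hb).2 a ha
    · exact h.1
  let V : Subgroup G :=
    { carrier := {w | w ∈ U ∧ j * w * j = w⁻¹}
      mul_mem' := fun {a b} ha hb => ⟨U.mul_mem ha.1 hb.1, by
        rw [hjj, ha.2, hb.2, ← mul_inv_rev, hcomm a ha.1 b hb.1]⟩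
      one_mem' := ⟨U.one_mem, by simp [hj]⟩
      inv_mem' := fun {a} ha => ⟨U.inv_mem ha.1, by
        have := hjj a a⁻¹
        rw [ha.2, mul_inv_cancel, mul_one, hj] at this
        exact (eq_inv_of_mul_eq_one_right this.symm)⟩ }
  exact fun w hw => (half V I (fun _ h => h.1) hI (by omega) hw).2

end Cfsg.Lib.R3F
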