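import Cfsg.Agent.Lib.R3F.Grid
import Cfsg.Agent.Lib.PGroup.Basic

/-! The case of a kernel of even order whose centre is semiregular. -/

set_option autoImplicit false

namespace Cfsg.Lib.R3F

open MulAction Subgroup Finset

theorem r3_central_inv (N : Type*) [Group N] [Finite N] [Group.IsNilpotent N]
    (h : Even (Nat.card N)) : ∃ z ∈ center N, z ≠ 1 ∧ z * z = 1 := by
  have : Fact (Nat.Prime 2) := ⟨Nat.prime_two⟩
  obtain ⟨P⟩ : Nonempty (Sylow 2 N) := inferInstance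
  have hP : (P : Subgroup N) ≠ ⊥ := P.ne_bot_of_dvd_card h.two_dvd
  have hn : (P : Subgroup N).Normal := inferInstance
  have h1 := Cfsg.Lib.PGroup.normal_inf_center_ne_bot (P : Subgroup N) hP
  have h2 : IsPGroup 2 ↥((P : Subgroup N) ⊓ center N) := P.isPGroup'.to_le inf_le_left
  have : Nontrivial ↥((P : Subgroup N) ⊓ center N) := (nontrivial_iff_ne_bot _).2 h1
  obtain ⟨n, hn0, hn⟩ := h2.nontrivial_iff_card.1 this
  obtain ⟨t, ht⟩ := exists_prime_orderOf_dvd_card' (G := ↥((P : Subgroup N) ⊓ center N)) 2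
    (by rw [hn]; exact dvd_pow_self 2 hn0.ne')
  refine ⟨t, t.2.2, fun e => ?_, ?_⟩
  · have : t = 1 := Subtype.ext e
    rw [this] at ht; simp at ht
  · have := pow_orderOf_eq_one t
    rw [ht, pow_two] at this
    exact congrArg Subtype.val this

theorem r3_fiber_le {G X : Type*} [Group G] [Finite G] [MulAction G X] (F : Finset G) (a y : X)
    (h : ∀ z ∈ F, z * z = 1 ∧ z • a = y) : F.card ≤ Nat.card (St G a y) := by
  rcases F.eq_empty_or_nonempty with rfl | ⟨z0, h0⟩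
  · simp
  have hy : ∀ z ∈ F, z • y = a := fun z hz => by
    rw [← (h z hz).2, ← mul_smul, (h z hz).1, one_smul]
  rw [← Nat.card_eq_finsetCard]
  refine Nat.card_le_card_of_injective (fun z => ⟨z0 * z.1, ?_, ?_⟩) fun z z' e => ?_
  · change (z0 * z.1) • a = a
    rw [mul_smul, (h _ z.2).2, hy _ h0]
  · change (z0 * z.1) • y = y
    rw [mul_smul, hy _ z.2, (h _ h0).2]
  · exact Subtype.ext (mul_left_cancel (congrArg Subtype.val e))

namespace Ctx

variable {G X : Type*} [Group G] [Finite G] [Fintype X] [MulAction G X] {C : Ctx G X}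

theorem l_pos : 0 < C.l := by
  rw [← card_nn C.x0]; exact card_pos.2 ⟨_, mem_nn.2 non0⟩

theorem sum_split [DecidableEq X] (a : X) (f : X → ℕ) :
    ∑ y ∈ univ.erase a, f y = ∑ y ∈ C.nb a, f y + ∑ y ∈ C.nn a, f y := by
  rw [← sum_union]
  · congr 1
    ext y
    simp only [mem_erase, mem_univ, and_true, mem_union, mem_nb, mem_nn]
    constructor
    · intro h; exact (tri (C := C) a y).resolve_left (Ne.symm h)
    · rintro (h | h)
      · exact (adj_ne h).symm
      · exact h.1.symm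
  · rw [disjoint_left]; intro y h1 h2; exact (mem_nn.1 h2).2 (mem_nb.1 h1)

variable (C) in
open Classical in
/-- the central involutions of the kernel -/
noncomputable def I (p : X) : Finset G :=
  (Fintype.ofFinite G).elems.filter fun z => z ∈ C.Z p ∧ z ≠ 1 ∧ z * z = 1

theorem mem_I {z : G} {p : X} : z ∈ C.I p ↔ z ∈ C.Z p ∧ z ≠ 1 ∧ z * z = 1 := by
  simp [I, Fintype.complete]

theorem Z_fix (hS : ¬ C.NS) {z : G} {p q : X} (hz : z ∈ C.Z p) (h1 : z ≠ 1) (hq : z • q = q) :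
    p = q := by_contra fun hne => hS ⟨z, p, q, h1, hz, hne, hq⟩

theorem m_le_I (hk : Even C.k) (p : X) : C.m ≤ (C.I p).card := by
  have := C.nil p
  obtain ⟨z, hz, h1, h2⟩ := r3_central_inv (C.K p) (by rwa [cardK])
  have hz1 : (z : G) ≠ 1 := fun e => h1 (Subtype.ext e)
  have hz2 : (z : G) * z = 1 := congrArg Subtype.val h2
  have hzZ : (z : G) ∈ C.Z p :=
    ⟨z.2, fun a ha => congrArg Subtype.val (mem_center_iff.1 hz ⟨a, ha⟩)⟩
  obtain ⟨b, hb⟩ := exAdj (C := C) p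
  rw [← cardE hb, ← Nat.card_eq_finsetCard]
  refine Nat.card_le_card_of_injective (fun e => ⟨e.1 * z * e.1⁻¹, mem_I.2 ⟨?_, ?_, ?_⟩⟩)
    fun e e' h => ?_
  · have := conjZ e.1 hzZ; rwa [e.2.1] at this
  · simpa using hz1
  · calc e.1 * z * e.1⁻¹ * (e.1 * z * e.1⁻¹) = e.1 * (z * z) * e.1⁻¹ := by group
      _ = 1 := by rw [hz2]; group
  · have h' : e.1 * z * e.1⁻¹ = e'.1 * z * e'.1⁻¹ := congrArg Subtype.val h
    have h3 : (e'⁻¹ * e).1 ∈ C.K p := memK_of_comm (e'⁻¹ * e).2.1 z.2 hz1 (by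
      change e'.1⁻¹ * e.1 * z = z * (e'.1⁻¹ * e.1)
      calc e'.1⁻¹ * e.1 * z = e'.1⁻¹ * (e.1 * z * e.1⁻¹) * e.1 := by group
        _ = _ := by rw [h']; group)
    have h4 : e'⁻¹ * e = 1 := Subtype.ext (K_eq_one h3 hb (e'⁻¹ * e).2.2)
    exact (inv_mul_eq_one.1 h4).symm

theorem card_biI [DecidableEq G] (hS : ¬ C.NS) (hk : Even C.k) (T : Finset X) :
    T.card * C.m ≤ (T.biUnion C.I).card := by
  rw [card_biUnion]
  · rw [← smul_eq_mul, ← sum_const]; exact sum_le_sum fun p _ => m_le_I hk p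
  · intro p _ q _ hpq
    rw [Function.onFun, disjoint_left]
    intro z h1 h2
    exact hpq (Z_fix hS (mem_I.1 h1).1 (mem_I.1 h1).2.1 (K_fix (mem_I.1 h2).1.1))

theorem even_count (hS : ¬ C.NS) (hk : Even C.k) :
    C.m ≤ C.u ∧ ∃ (z : G) (p y : X), z ∈ C.I p ∧ C.adj C.x0 y ∧ z • C.x0 = y := by
  classical
  set S := (univ.erase C.x0).biUnion C.I with hSd
  have h1 := card_biI hS hk (univ.erase C.x0)
  rw [card_erase_of_mem (mem_univ _), card_univ, card_X (C := C)] at h1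
  have hmem : ∀ z ∈ S, ∃ p, p ≠ C.x0 ∧ z ∈ C.I p := fun z hz => by
    obtain ⟨p, hp, hz⟩ := mem_biUnion.1 hz
    exact ⟨p, (mem_erase.1 hp).1, hz⟩
  have h2 := card_eq_sum_card_fiberwise (f := fun z : G => z • C.x0) (s := S)
    (t := univ.erase C.x0) (fun z hz => by
      obtain ⟨p, hp, hz⟩ := hmem z hz
      exact mem_coe.2 (mem_erase.2 ⟨fun e => hp (Z_fix hS (mem_I.1 hz).1 (mem_I.1 hz).2.1 e),
        mem_univ _⟩))
  have hf : ∀ y, (S.filter fun z => z • C.x0 = y).card ≤ Nat.card (St G C.x0 y) := fun y =>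
    r3_fiber_le _ _ _ fun z hz => by
      obtain ⟨p, -, hp⟩ := hmem z (mem_filter.1 hz).1
      exact ⟨(mem_I.1 hp).2.2, (mem_filter.1 hz).2⟩
  rw [sum_split (C := C)] at h2
  have h3 : ∑ y ∈ C.nn C.x0, (S.filter fun z => z • C.x0 = y).card ≤ C.k * C.m := by
    rw [← lu_eq, ← card_nn C.x0, ← smul_eq_mul, ← sum_const]
    exact sum_le_sum fun y hy => (hf y).trans (cardU (mem_nn.1 hy)).le
  have h4 : ∑ y ∈ C.nb C.x0, (S.filter fun z => z • C.x0 = y).card ≤ C.k * C.m := by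
    rw [← card_nb C.x0, ← smul_eq_mul, ← sum_const]
    exact sum_le_sum fun y hy => (hf y).trans (cardE (mem_nb.1 hy)).le
  have h5 : 1 + C.k + C.l - 1 = C.k + C.l := by omega
  rw [h5, ← hSd, add_mul] at h1
  have hm := two_le_m (C := C)
  have hl := l_pos (C := C)
  constructor
  · have : C.l * C.m ≤ C.l * C.u := by rw [lu_eq]; omega
    exact Nat.le_of_mul_le_mul_left this hl
  · by_contra hc
    push Not at hc
    have : ∑ y ∈ C.nb C.x0, (S.filter fun z => z • C.x0 = y).card = 0 :=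
      sum_eq_zero fun y hy => card_eq_zero.2 (filter_eq_empty_iff.2 fun z hz => by
        obtain ⟨p, -, hp⟩ := hmem z hz
        exact hc z p y hp (mem_nb.1 hy))
    have : 0 < C.l * C.m := Nat.mul_pos hl (by omega)
    omega

theorem even_E_comm (hS : ¬ C.NS) (hk : Even C.k) {a b : X} (h : C.adj a b) {e e' : G}
    (he : e ∈ St G a b) (he' : e' ∈ St G a b) : e * e' = e' * e := by
  obtain ⟨-, z, p, y, hz, hy, hzy⟩ := even_count hS hk
  obtain ⟨hz, hz1, hz2⟩ := mem_I.1 hz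
  have hzy' : z • y = C.x0 := by rw [← hzy, ← mul_smul, hz2, one_smul]
  have hinv := r3_inv_of_fpf (St G C.x0 y) hz2 (fun g hg =>
    ⟨by change _ • _ = _; rw [mul_smul, mul_smul, hzy, hg.2, hzy'],
     by change _ • _ = _; rw [mul_smul, mul_smul, hzy', hg.1, hzy]⟩) (fun g hg e => by
      have hc : g * z = z * g := by
        calc g * z = z * (z * g * z) := by rw [← mul_assoc, ← mul_assoc, hz2, one_mul]
          _ = z * g := by rw [e]
      have hp : g • p = p := (Z_fix hS hz hz1 (by rw [← mul_smul, ← hc, mul_smul, K_fix hz.1])).symm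
      exact eq_one_of_pow (pow_k (memK_of_comm hp hz.1 hz1 hc)) (pow_m hy hg.1 hg.2))
  obtain ⟨g, h1, h2⟩ := C.trAdj h hy
  have hc : ∀ t ∈ St G a b, g * t * g⁻¹ ∈ St G C.x0 y := fun t ht =>
    ⟨by change _ • _ = _; rw [← h1, mul_smul, mul_smul, inv_smul_smul, ht.1],
     by change _ • _ = _; rw [← h2, mul_smul, mul_smul, inv_smul_smul, ht.2]⟩
  have := r3_comm_of_inv _ hz2 hinv (hc e he) (hc e' he')
  calc e * e' = g⁻¹ * (g * e * g⁻¹ * (g * e' * g⁻¹)) * g := by group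
    _ = _ := by rw [this]; group

theorem even_U_le (hS : ¬ C.NS) (hk : Even C.k) {a c : X} (h : C.non a c) : St G a c ≤ C.K a := by
  have hm : Odd C.m := by
    by_contra hm
    exact (Nat.not_even_iff_odd.2 (odd_k (Nat.not_odd_iff_even.1 hm))) hk
  intro x hx
  by_contra hxK
  obtain ⟨b, hb, hxb⟩ := exists_fix_of_notMem hx.1 hxK
  have hx1 : x ≠ 1 := fun e => hxK (e ▸ (C.K a).one_mem)
  have hxm := pow_m hb hx.1 hxb
  have huniq : ∀ {p q r : X}, C.adj p q → C.adj p r → x • p = p → x • q = q → x • r = r → q = r :=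
    fun h1 h2 e1 e2 e3 => by_contra fun hne => hx1 (C.frob h1 h2 hne e1 e2 e3)
  obtain ⟨c', hc', hxc', -⟩ := partner (C := C) hx1 hxm hx.2
  have hac' : C.non a c' := by
    refine ⟨fun e => h.2 (C.symm (e ▸ hc')), fun e => ?_⟩
    have e1 := huniq e hb hx.1 hxc' hxb
    subst e1
    exact h.1 (huniq (C.symm hb) (C.symm hc') hxb hx.1 hx.2)
  obtain ⟨g, hg, hgc⟩ := trN h hac'
  obtain ⟨y, hy, e, ea, eb, rfl⟩ := decomp hb hg
  have hxe : x * e = e * x := even_E_comm hS hk hb ⟨hx.1, hxb⟩ ⟨ea, eb⟩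
  have hxd : x • e • c = e • c := by rw [← mul_smul, hxe, mul_smul, hx.2]
  have hcent : ∀ w ∈ C.K a, ∀ w' ∈ C.K a, w⁻¹ * x * w * x⁻¹ = w'⁻¹ * x * w' * x⁻¹ → w = w' := by
    intro w hw w' hw' e'
    have e2 : w⁻¹ * x * w = w'⁻¹ * x * w' := mul_right_cancel e'
    by_contra hne
    refine hxK (memK_of_comm hx.1 ((C.K a).mul_mem hw ((C.K a).inv_mem hw'))
      (fun e3 => hne (mul_inv_eq_one.1 e3)) ?_)
    calc x * (w * w'⁻¹) = w * (w⁻¹ * x * w) * w'⁻¹ := by group
      _ = _ := by rw [e2]; group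
  have hK : ∀ w ∈ C.K a, w⁻¹ * x * w * x⁻¹ ∈ C.K a := fun w hw => by
    have := (C.K a).mul_mem ((C.K a).inv_mem hw) (conjK' hx.1 hw)
    simpa [mul_assoc] using this
  let φ : ↥(C.K a ⊓ stabilizer G (e • c)) → ↥(C.K a ⊓ stabilizer G (e • c)) := fun w =>
    ⟨w.1⁻¹ * x * w.1 * x⁻¹, hK _ w.2.1, by
      have hw : w.1 • e • c = e • c := w.2.2
      change _ • _ = _
      rw [mul_smul, mul_smul, mul_smul, inv_smul_eq_iff.2 hxd.symm, hw, hxd,
        inv_smul_eq_iff.2 hw.symm]⟩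
  have hφ : Function.Injective φ := fun w w' e' =>
    Subtype.ext (hcent _ w.2.1 _ w'.2.1 (congrArg Subtype.val e'))
  rw [mul_smul] at hgc
  obtain ⟨w, hw⟩ := Finite.injective_iff_surjective.1 hφ ⟨y⁻¹ * x * y * x⁻¹, hK _ hy, by
    change _ • _ = _
    rw [mul_smul, mul_smul, mul_smul, inv_smul_eq_iff.2 hxd.symm, hgc, hxc', ← hgc, inv_smul_smul]⟩
  have hwy : w.1 = y := hcent _ w.2.1 _ hy (congrArg Subtype.val hw)
  have hd : e • c = c' := by
    have hw2 : w.1 • e • c = e • c := w.2.2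
    rw [← hgc, ← hwy, hw2]
  have h2 : e • c' = c := huniq (by have := C.inv e hc'; rwa [hd] at this) (C.symm hc') hxc'
    (by rw [← mul_smul, hxe, mul_smul, hxc']) hx.2
  obtain ⟨r, hr⟩ := r3_odd_root hm (pow_m hb ea eb)
  have : ∀ s : ℕ, ((e * e) ^ s) • c = c := fun s => by
    induction s with
    | zero => simp
    | succ s ih => rw [pow_succ', mul_smul, ih, mul_smul, hd, h2]
  exact adj_ne hc' (by rw [← hd, hr, this])

theorem even_false (hS : ¬ C.NS) (hk : Even C.k) : False := by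
  classical
  have hmu := (even_count hS hk).1
  have hm := two_le_m (C := C)
  have h := non0 (C := C)
  have hU := even_U_le hS hk h
  have : Nontrivial (St G C.x0 C.z0) := Finite.one_lt_card_iff_nontrivial.1 (by
    rw [cardU h]; omega)
  obtain ⟨w0, hw0⟩ := exists_ne (1 : St G C.x0 C.z0)
  have hw1 : (w0 : G) ≠ 1 := fun e => hw0 (Subtype.ext e)
  set Φ := univ.filter fun p : X => ∀ w ∈ St G C.x0 C.z0, w • p = p with hΦ
  have hmem : ∀ p, p ∈ Φ ↔ ∀ w ∈ St G C.x0 C.z0, w • p = p := fun p => by simp [hΦ]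
  have h1 := card_biI hS hk (Φ.erase C.x0)
  have hpres : ∀ p ∈ Φ, ∀ z ∈ C.I p, ∀ q ∈ Φ, z • q ∈ Φ := fun p hp z hz q hq =>
    (hmem _).2 fun w hw => by
      rw [← mul_smul, (mem_I.1 hz).1.2 w (memK_of_memK (hU hw) ((hmem p).1 hp w hw)), mul_smul,
        (hmem q).1 hq w hw]
  have ha : C.x0 ∈ Φ := (hmem _).2 fun w hw => hw.1
  have h2 : ((Φ.erase C.x0).biUnion C.I).card ≤ (Φ.erase C.x0).card := by
    refine card_le_card_of_injOn (fun z => z • C.x0) (fun z hz => ?_) fun z hz z' hz' e => ?_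
    · obtain ⟨p, hp, hz⟩ := mem_biUnion.1 (mem_coe.1 hz)
      rw [mem_erase] at hp
      exact mem_coe.2 (mem_erase.2 ⟨fun e => hp.1 (Z_fix hS (mem_I.1 hz).1 (mem_I.1 hz).2.1 e),
        hpres p hp.2 z hz _ ha⟩)
    · obtain ⟨p, hp, hz⟩ := mem_biUnion.1 (mem_coe.1 hz)
      obtain ⟨p', hp', hz'⟩ := mem_biUnion.1 (mem_coe.1 hz')
      rw [mem_erase] at hp hp'
      have e' : z • C.x0 = z' • C.x0 := e
      have hzz : ∀ q : X, z • z • q = q := fun q => by rw [← mul_smul, (mem_I.1 hz).2.2, one_smul]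
      have hzz' : ∀ q : X, z' • z' • q = q := fun q => by
        rw [← mul_smul, (mem_I.1 hz').2.2, one_smul]
      have hne : C.x0 ≠ z • C.x0 := fun e => hp.1 (Z_fix hS (mem_I.1 hz).1 (mem_I.1 hz).2.1 e.symm)
      have hy := hpres p hp.2 z hz _ ha
      have hn : C.non C.x0 (z • C.x0) :=
        fix_non hw1 (hU w0.2) w0.2.1 ((hmem _).1 hy _ w0.2) hne
      have heq : St G C.x0 C.z0 = St G C.x0 (z • C.x0) :=
        eq_of_le_of_card_ge (fun w hw => ⟨hw.1, (hmem _).1 hy w hw⟩)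
          (by rw [cardU hn, cardU h])
      have hg : z * z' ∈ St G C.x0 C.z0 := by
        rw [heq]
        exact ⟨by change _ • _ = _; rw [mul_smul, ← e', hzz],
          by change _ • _ = _; rw [mul_smul, e', hzz', ← e']⟩
      have hp2 : z' • p = p := by
        have := (hmem p).1 hp.2 _ hg
        rw [mul_smul] at this
        rw [← hzz (z' • p), this, K_fix (mem_I.1 hz).1.1]
      have hpp := Z_fix hS (mem_I.1 hz').1 (mem_I.1 hz').2.1 hp2
      subst hpp
      by_contra hzz2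
      refine hp.1 (Z_fix hS ((C.Z p').mul_mem (mem_I.1 hz).1 (mem_I.1 hz').1) (fun e2 => hzz2 ?_)
        hg.1)
      calc z = z * (z' * z') := by rw [(mem_I.1 hz').2.2, mul_one]
        _ = z' := by rw [← mul_assoc, e2, one_mul]
  have h3 : 0 < (Φ.erase C.x0).card :=
    card_pos.2 ⟨C.z0, mem_erase.2 ⟨h.1.symm, (hmem _).2 fun w hw => hw.2⟩⟩
  nlinarith

end Ctx

end Cfsg.Lib.R3F
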