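import Mathlib

/-! A sharply 2-transitive group with odd stabilizers normalized by an involution with at most two
fixed points has degree at most four; and small lemmas on inverting involutions. -/

set_option autoImplicit false

namespace Cfsg.Lib.R3F

open Finset

theorem r3_sharp_perm {Y : Type*} [Fintype Y] [DecidableEq Y] (T : Subgroup (Equiv.Perm Y))
    (ι : Equiv.Perm Y) (a c : Y)
    (htr : ∀ p q q' : Y, q ≠ p → q' ≠ p → ∃ g ∈ T, g p = p ∧ g q = q')
    (hsh : ∀ g ∈ T, ∀ p q : Y, p ≠ q → g p = p → g q = q → g = 1)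
    (hodd : ∀ g ∈ T, ∀ p : Y, g p = p → g * g = 1 → g = 1)
    (hi : ι * ι = 1) (hiT : ∀ g ∈ T, ι * g * ι ∈ T) (hia : ι a = a)
    (hif : ∀ p, ι p = p → p = a ∨ p = c) : Fintype.card Y ≤ 4 := by
  by_contra hcard
  push Not at hcard
  have third : ∀ p q : Y, ∃ r, r ≠ p ∧ r ≠ q := fun p q => by
    by_contra h
    push Not at h
    have : (univ : Finset Y) ⊆ {p, q} := fun r _ => by
      by_cases e : r = p
      · simp [e]
      · simp [h r e]
    have := (card_le_card this).trans card_le_two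
    rw [card_univ] at this
    omega
  have htr1 : ∀ p p' : Y, ∃ g ∈ T, g p = p' := fun p p' => by
    obtain ⟨r, h1, h2⟩ := third p p'
    obtain ⟨g, hg, -, e⟩ := htr r p p' h1.symm h2.symm
    exact ⟨g, hg, e⟩
  have htr2 : ∀ p q p' q' : Y, p ≠ q → p' ≠ q' → ∃ g ∈ T, g p = p' ∧ g q = q' := by
    intro p q p' q' h h'
    obtain ⟨g, hg, e⟩ := htr1 p p'
    obtain ⟨g', hg', e1, e2⟩ := htr p' (g q) q' (fun e' => h (g.injective (e.trans e'.symm))) h'.symm
    exact ⟨g' * g, T.mul_mem hg' hg, by simp [e, e1], by simp [e2]⟩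
  have agree : ∀ g ∈ T, ∀ h ∈ T, ∀ p q : Y, p ≠ q → g p = h p → g q = h q → g = h := by
    intro g hg h hh p q hpq e1 e2
    have := hsh (h⁻¹ * g) (T.mul_mem (T.inv_mem hh) hg) p q hpq (by simp [e1]) (by simp [e2])
    exact (inv_mul_eq_one.1 this).symm
  have hτ : ∀ q : Y, ∃ g ∈ T, g a = q ∧ g q = a := fun q => by
    by_cases h : a = q
    · exact ⟨1, T.one_mem, h, h.symm⟩
    · exact htr2 a q q a h (Ne.symm h)
  choose τ hτT hτa hτq using hτ
  have hττ : ∀ q, q ≠ a → τ q * τ q = 1 := fun q h =>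
    hsh _ (T.mul_mem (hτT q) (hτT q)) a q h.symm (by simp [hτa, hτq]) (by simp [hτa, hτq])
  have hτf : ∀ q, q ≠ a → ∀ r, τ q r ≠ r := fun q h r e => by
    have := hodd _ (hτT q) r e (hττ q h)
    have h2 := hτa q
    rw [this] at h2
    exact h h2.symm
  have huniq : ∀ g ∈ T, ∀ h ∈ T, (∀ r, g r ≠ r) → (∀ r, h r ≠ r) → g a = h a → g = h := by
    intro g hg h hh fg fh e
    have hq : g a ≠ a := fg a
    by_contra hne
    have hne' : g (g a) ≠ h (g a) := fun e' => hne (agree g hg h hh a (g a) hq.symm e e')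
    have hex : ∀ r, r ≠ a → r ≠ g a → ∃ s ∈ T, s a = g a ∧ s r = r := fun r h1 h2 =>
      htr2 a r (g a) r h1.symm h2.symm
    choose! s hsT hsa hsr using hex
    have hsub : insert (g (g a)) (insert (h (g a)) (((univ.erase a).erase (g a)).image
        fun r => s r (g a))) ⊆ univ.erase (g a) := by
      intro w hw
      rw [mem_erase]
      refine ⟨?_, mem_univ _⟩
      simp only [mem_insert, mem_image, mem_erase] at hw
      rcases hw with rfl | rfl | ⟨r, ⟨h1, h2, -⟩, rfl⟩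
      · exact fg _
      · exact fh _
      · intro e'
        exact hq ((s r).injective (e'.trans (hsa r h2 h1).symm))
    have hc := card_le_card hsub
    rw [card_insert_of_notMem, card_insert_of_notMem, card_image_of_injOn,
      card_erase_of_mem (by simp [hq]), card_erase_of_mem (mem_univ _),
      card_erase_of_mem (mem_univ _), card_univ] at hc
    · omega
    · intro r hr r' hr' e'
      simp only [coe_erase, coe_univ, Set.mem_sdiff, Set.mem_univ, Set.mem_singleton_iff,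
        true_and] at hr hr'
      have e2 : s r = s r' := agree _ (hsT r hr.1 hr.2) _ (hsT r' hr'.1 hr'.2) a (g a) hq.symm
        ((hsa r hr.1 hr.2).trans (hsa r' hr'.1 hr'.2).symm) e'
      by_contra hrr
      have := hsh _ (hsT r hr.1 hr.2) r r' hrr (hsr r hr.1 hr.2) (e2 ▸ hsr r' hr'.1 hr'.2)
      have h3 := hsa r hr.1 hr.2
      rw [this] at h3
      exact hq h3.symm
    · simp only [mem_image, mem_erase, not_exists, not_and]
      intro r hr e'
      have := agree _ (hsT r hr.2.1 hr.1) h hh a (g a) hq.symm ((hsa r hr.2.1 hr.1).trans e) e'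
      exact fh r (this ▸ hsr r hr.2.1 hr.1)
    · simp only [mem_insert, mem_image, mem_erase, not_or, not_exists, not_and]
      refine ⟨hne', fun r hr e' => ?_⟩
      have := agree _ (hsT r hr.2.1 hr.1) g hg a (g a) hq.symm (hsa r hr.2.1 hr.1) e'
      exact fg r (this ▸ hsr r hr.2.1 hr.1)
  have hτi : ∀ q, q ≠ a → ∀ r, τ q (τ q r) = r := fun q h r => by
    rw [← Equiv.Perm.mul_apply, hττ q h]; rfl
  have hprod : ∀ q q', q ≠ a → q' ≠ a → q ≠ q' → ∀ r, (τ q * τ q') r ≠ r := by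
    intro q q' h h' hqq r e
    have e1 : τ q' r = τ q r := by
      have := congrArg (τ q) e
      rwa [Equiv.Perm.mul_apply, hτi q h] at this
    have := agree _ (hτT q') _ (hτT q) r (τ q r) (hτf q h r).symm e1
      (by rw [hτi q h, ← e1, hτi q' h'])
    exact hqq ((hτa q).symm.trans (this ▸ hτa q'))
  have hfpf : ∀ g ∈ T, (∀ r, g r ≠ r) → g = τ (g a) := fun g hg f =>
    huniq g hg _ (hτT _) f (hτf _ (f a)) (hτa _).symm
  have hcomm : ∀ q q', q ≠ a → q' ≠ a → τ q * τ q' = τ q' * τ q := by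
    intro q q' h h'
    by_cases hqq : q = q'
    · rw [hqq]
    · have f := hprod q q' h h' hqq
      have e := hfpf _ (T.mul_mem (hτT q) (hτT q')) f
      have e2 : (τ q * τ q') * (τ q * τ q') = 1 := by rw [e]; exact hττ _ (f a)
      have i1 : (τ q)⁻¹ = τ q := inv_eq_of_mul_eq_one_right (hττ q h)
      have i2 : (τ q')⁻¹ = τ q' := inv_eq_of_mul_eq_one_right (hττ q' h')
      rw [← inv_eq_of_mul_eq_one_right e2, mul_inv_rev, i1, i2]
  have hιι : ∀ r, ι (ι r) = r := fun r => by rw [← Equiv.Perm.mul_apply, hi]; rfl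
  have hιa : ∀ q, q ≠ a → ι q ≠ a := fun q h e => h (ι.injective (e.trans hia.symm))
  have hconj : ∀ q, q ≠ a → ι * τ q * ι = τ (ι q) := fun q h =>
    agree _ (hiT _ (hτT q)) _ (hτT _) a (ι q) (hιa q h).symm (by simp [hia, hτa])
      (by simp [hιι, hτq, hia])
  have hconj2 : ∀ q q', q ≠ a → q' ≠ a → ι ((τ q * τ q') a) = (τ (ι q) * τ (ι q')) a := by
    intro q q' h h'
    rw [← hconj q h, ← hconj q' h']
    simp [hιι, hia]
  have hc : ∀ q, q ≠ a → q ≠ c → c ≠ a ∧ τ (ι q) = τ q * τ c := by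
    intro q h h'
    have hne : q ≠ ι q := fun e => (hif q e.symm).elim h h'
    have f := hprod q (ι q) h (hιa q h) hne
    have e := hconj2 q (ι q) h (hιa q h)
    rw [hιι, ← hcomm q (ι q) h (hιa q h)] at e
    have e' := (hif _ e).resolve_left (f a)
    have e2 := hfpf _ (T.mul_mem (hτT q) (hτT (ι q))) f
    rw [e'] at e2
    refine ⟨e' ▸ f a, ?_⟩
    rw [← e2, ← mul_assoc, hττ q h, one_mul]
  obtain ⟨q1, h1, h1'⟩ := third a c
  have hsub : (univ : Finset Y) ⊆ {a, c, τ q1 a, τ q1 c} := by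
    intro q2 _
    simp only [mem_insert, mem_singleton]
    by_cases h2 : q2 = a
    · exact Or.inl h2
    by_cases h2' : q2 = c
    · exact Or.inr (Or.inl h2')
    right; right
    have e := hconj2 q1 q2 h1 h2
    obtain ⟨hca, e1⟩ := hc q1 h1 h1'
    rw [e1, (hc q2 h2 h2').2, mul_assoc, ← mul_assoc (τ c), hcomm c q2 hca h2, mul_assoc,
      hττ c hca, mul_one] at e
    rcases hif _ e with e' | e'
    · left; rw [← e', Equiv.Perm.mul_apply, hτi q1 h1, hτa]
    · right; rw [← e', Equiv.Perm.mul_apply, hτi q1 h1, hτa]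
  have := (card_le_card hsub).trans card_le_four
  rw [card_univ] at this
  omega

variable {G X : Type*} [Group G] [MulAction G X]

theorem r3_sharp (S : Subgroup G) (L : Finset X) (i : G) (a c : X) (ha : a ∈ L) (hc : c ∈ L)
    (hinv : ∀ g ∈ S, ∀ p ∈ L, g • p ∈ L)
    (htr : ∀ p ∈ L, ∀ q ∈ L, ∀ q' ∈ L, q ≠ p → q' ≠ p → ∃ g ∈ S, g • p = p ∧ g • q = q')
    (hsh : ∀ g ∈ S, ∀ p ∈ L, ∀ q ∈ L, p ≠ q → g • p = p → g • q = q → ∀ r ∈ L, g • r = r)
    (hodd : ∀ g ∈ S, ∀ p ∈ L, g • p = p → (∀ r ∈ L, g • g • r = r) → ∀ r ∈ L, g • r = r)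
    (hi : i * i = 1) (hiS : ∀ g ∈ S, i * g * i ∈ S) (hiL : ∀ p ∈ L, i • p ∈ L) (hia : i • a = a)
    (hif : ∀ p ∈ L, i • p = p → p = a ∨ p = c) : L.card ≤ 4 := by
  classical
  let T : Subgroup (Equiv.Perm L) :=
    { carrier := {σ | ∃ g ∈ S, ∀ p : L, (σ p : X) = g • (p : X)}
      mul_mem' := by
        rintro σ σ' ⟨g, hg, e⟩ ⟨g', hg', e'⟩
        exact ⟨g * g', S.mul_mem hg hg', fun p => by rw [Equiv.Perm.mul_apply, e, e', mul_smul]⟩
      one_mem' := ⟨1, S.one_mem, fun p => by simp⟩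
      inv_mem' := by
        rintro σ ⟨g, hg, e⟩
        exact ⟨g⁻¹, S.inv_mem hg, fun p => by rw [eq_inv_smul_iff, ← e]; simp⟩ }
  have hres : ∀ g : G, (∀ p ∈ L, g • p ∈ L) → (∀ p ∈ L, g⁻¹ • p ∈ L) →
      ∃ σ : Equiv.Perm L, ∀ p : L, (σ p : X) = g • (p : X) := fun g h h' =>
    ⟨⟨fun p => ⟨g • p.1, h _ p.2⟩, fun p => ⟨g⁻¹ • p.1, h' _ p.2⟩, fun p => by simp,
      fun p => by simp⟩, fun _ => rfl⟩
  have hi' : i⁻¹ = i := inv_eq_of_mul_eq_one_right hi
  obtain ⟨ι, hι⟩ := hres i hiL (hi'.symm ▸ hiL)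
  have := r3_sharp_perm T ι ⟨a, ha⟩ ⟨c, hc⟩ (fun p q q' h h' => by
      obtain ⟨g, hg, e1, e2⟩ := htr p p.2 q q.2 q' q'.2 (fun e => h (Subtype.ext e))
        (fun e => h' (Subtype.ext e))
      obtain ⟨σ, hσ⟩ := hres g (hinv g hg) (hinv _ (S.inv_mem hg))
      exact ⟨σ, ⟨g, hg, hσ⟩, Subtype.ext ((hσ p).trans e1), Subtype.ext ((hσ q).trans e2)⟩)
    (by
      rintro σ ⟨g, hg, e⟩ p q h e1 e2
      ext r
      rw [e]
      exact hsh g hg p p.2 q q.2 (fun e => h (Subtype.ext e)) (by rw [← e, e1]) (by rw [← e, e2])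
        r r.2)
    (by
      rintro σ ⟨g, hg, e⟩ p e1 e2
      ext r
      rw [e]
      exact hodd g hg p p.2 (by rw [← e, e1]) (fun r hr => by
        have := congrArg (fun s : Equiv.Perm L => ((s ⟨r, hr⟩ : L) : X)) e2
        simpa only [Equiv.Perm.mul_apply, e, Equiv.Perm.one_apply] using this) r r.2)
    (by ext r; rw [Equiv.Perm.mul_apply, hι, hι, ← mul_smul, hi]; simp)
    (by
      rintro σ ⟨g, hg, e⟩
      exact ⟨i * g * i, hiS g hg, fun p => by
        rw [Equiv.Perm.mul_apply, Equiv.Perm.mul_apply, hι, e, hι, mul_smul, mul_smul]⟩)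
    (Subtype.ext ((hι _).trans hia))
    (fun p e => (hif p p.2 (by rw [← hι, e])).imp Subtype.ext Subtype.ext)
  simpa using this

theorem r3_inv_of_fpf [Finite G] (S : Subgroup G) {j : G} (hj : j * j = 1)
    (hn : ∀ a ∈ S, j * a * j ∈ S) (hf : ∀ a ∈ S, j * a * j = a → a = 1) :
    ∀ a ∈ S, j * a * j = a⁻¹ := by
  let φ : S →* S :=
    { toFun := fun a => ⟨j * a * j, hn a a.2⟩
      map_one' := Subtype.ext (by simp [hj])
      map_mul' := fun a b => Subtype.ext (by
        simp only [Subgroup.coe_mul]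
        calc j * (a * b) * j = j * a * (j * j) * b * j := by rw [hj]; group
          _ = _ := by group) }
  have h1 : MonoidHom.FixedPointFree φ := fun a e =>
    Subtype.ext (hf a a.2 (congrArg Subtype.val e))
  have h2 : Function.Involutive φ := fun a => Subtype.ext (by
    change j * (j * a * j) * j = a
    calc j * (j * a * j) * j = (j * j) * a * (j * j) := by group
      _ = a := by rw [hj]; simp)
  intro a ha
  exact congrArg Subtype.val (congrFun (h1.coe_eq_inv_of_involutive h2) ⟨a, ha⟩)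

theorem r3_comm_of_inv (S : Subgroup G) {j : G} (hj : j * j = 1)
    (h : ∀ a ∈ S, j * a * j = a⁻¹) {a b : G} (ha : a ∈ S) (hb : b ∈ S) : a * b = b * a := by
  have h1 := h _ (S.mul_mem ha hb)
  have h2 : j * (a * b) * j = (j * a * j) * (j * b * j) := by
    calc j * (a * b) * j = j * a * (j * j) * b * j := by rw [hj]; group
      _ = _ := by group
  rw [h2, h a ha, h b hb, ← mul_inv_rev] at h1
  exact (inv_injective h1).symm

theorem r3_odd_root {g : G} {n : ℕ} (hn : Odd n) (h : g ^ n = 1) : ∃ r, g = (g * g) ^ r := by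
  obtain ⟨r, rfl⟩ := hn
  refine ⟨r + 1, ?_⟩
  rw [← pow_two, ← pow_mul, show 2 * (r + 1) = 2 * r + 1 + 1 by ring, pow_succ, h, one_mul]

end Cfsg.Lib.R3F
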