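import Cfsg.Agent.Lib.R3F.Setup
import Cfsg.Agent.Lib.R3F.Sharp

/-! The case in which a central element of the kernel fixes a second point: a grid. -/

set_option autoImplicit false

namespace Cfsg.Lib.R3F

open MulAction Subgroup Finset

namespace Ctx

variable {G X : Type*} [Group G] [Finite G] [Fintype X] [MulAction G X] {C : Ctx G X}

theorem inv_pow_m (hm : Even C.m) {j : G} (hj : j * j = 1) : j ^ C.m = 1 := by
  obtain ⟨r, hr⟩ := hm
  rw [hr, ← two_mul, pow_mul, pow_two, hj, one_pow]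

theorem ex_inv (hm : Even C.m) {x y : X} (h : C.adj x y) :
    ∃ j : G, j ≠ 1 ∧ j * j = 1 ∧ j • x = x ∧ j • y = y := by
  have : Fact (Nat.Prime 2) := ⟨Nat.prime_two⟩
  obtain ⟨t, ht⟩ := exists_prime_orderOf_dvd_card' (G := St G x y) 2 (by
    rw [cardE h]; exact hm.two_dvd)
  refine ⟨t, fun e => ?_, ?_, t.2.1, t.2.2⟩
  · have : t = 1 := Subtype.ext e
    rw [this] at ht; simp at ht
  · have := pow_orderOf_eq_one t
    rw [ht, pow_two] at this
    exact congrArg Subtype.val this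

theorem inverts (hm : Even C.m) {j : G} (h1 : j ≠ 1) (hj : j * j = 1) {x : X} (hx : j • x = x) :
    ∀ a ∈ C.K x, j * a * j = a⁻¹ := by
  have hi : j⁻¹ = j := inv_eq_of_mul_eq_one_right hj
  refine r3_inv_of_fpf _ hj (fun a ha => by have := conjK' hx ha; rwa [hi] at this)
    fun a ha e => by_contra fun hne => h1 (eq_one_of_pow (C := C) (pow_k (memK_of_comm hx ha hne ?_))
      (inv_pow_m hm hj))
  calc j * a = j * a * j * j := by rw [mul_assoc, hj, mul_one]
    _ = a * j := by rw [e]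

theorem K_comm (hm : Even C.m) {x : X} {a b : G} (ha : a ∈ C.K x) (hb : b ∈ C.K x) :
    a * b = b * a := by
  obtain ⟨y, hy⟩ := exAdj (C := C) x
  obtain ⟨j, h1, hj, hx, -⟩ := ex_inv hm hy
  exact r3_comm_of_inv _ hj (inverts hm h1 hj hx) ha hb

theorem odd_k (hm : Even C.m) : Odd C.k := by
  by_contra h
  rw [Nat.not_odd_iff_even] at h
  have := Nat.dvd_gcd h.two_dvd hm.two_dvd
  rw [cop] at this
  omega

theorem exK (x : X) : ∃ a ∈ C.K x, a ≠ 1 := by
  have h : 1 < Nat.card (C.K x) := by rw [cardK]; exact two_le_k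
  have := Finite.one_lt_card_iff_nontrivial.1 h
  obtain ⟨a, ha⟩ := exists_ne (1 : C.K x)
  exact ⟨a, a.2, fun e => ha (Subtype.ext e)⟩

theorem inv_unique (hm : Even C.m) {i j : G} (hi1 : i ≠ 1) (hi : i * i = 1) (hj1 : j ≠ 1)
    (hj : j * j = 1) {x y : X} (h : C.adj x y) (hix : i • x = x) (hiy : i • y = y)
    (hjx : j • x = x) (hjy : j • y = y) : i = j := by
  obtain ⟨a, ha, h1⟩ := exK (C := C) x
  have e1 := inverts hm hi1 hi hix a ha
  have e2 := inverts hm hj1 hj hjx a ha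
  have : i * j ∈ C.K x := memK_of_comm (by rw [mul_smul, hjx, hix]) ha h1 (by
    calc i * j * a = i * (j * a * j) * j := by
          rw [show i * (j * a * j) * j = i * j * a * (j * j) by group, hj, mul_one]
      _ = i * (i * a * i) * j := by rw [e1, e2]
      _ = a * (i * j) := by
          rw [show i * (i * a * i) * j = (i * i) * a * (i * j) by group, hi, one_mul])
  have := K_eq_one this h (by rw [mul_smul, hjy, hiy])
  calc i = i * (j * j) := by rw [hj, mul_one]
    _ = j := by rw [← mul_assoc, this, one_mul]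

variable (C) in
/-- the centre of the kernel -/
def Z (x : X) : Subgroup G := C.K x ⊓ centralizer (C.K x : Set G)

theorem mem_Z {g : G} {x : X} : g ∈ C.Z x ↔ g ∈ C.K x ∧ ∀ h ∈ C.K x, h * g = g * h := Iff.rfl

theorem conjZ {g : G} {x : X} (h : G) (hg : g ∈ C.Z x) : h * g * h⁻¹ ∈ C.Z (h • x) := by
  refine ⟨conjK h hg.1, fun a ha => ?_⟩
  have h1 : h⁻¹ * a * h⁻¹⁻¹ ∈ C.K x := by
    have := conjK h⁻¹ ha; rwa [inv_smul_smul] at this
  have := hg.2 _ h1
  calc a * (h * g * h⁻¹) = h * (h⁻¹ * a * h⁻¹⁻¹ * g) * h⁻¹ := by group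
    _ = h * (g * (h⁻¹ * a * h⁻¹⁻¹)) * h⁻¹ := by rw [this]
    _ = _ := by group

theorem fix_non {w : G} {x p q : X} (h1 : w ≠ 1) (hw : w ∈ C.K x) (hp : w • p = p)
    (hq : w • q = q) (hpq : p ≠ q) : C.non p q :=
  ⟨hpq, fun h => h1 (K_eq_one (memK_of_memK hw hp) h hq)⟩

variable (C) in
/-- the part of the centre of the kernel fixing a second point -/
def W (x y : X) : Subgroup G := C.Z x ⊓ stabilizer G y

theorem mem_W {g : G} {x y : X} : g ∈ C.W x y ↔ g ∈ C.Z x ∧ g • y = y := Iff.rfl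

theorem conjW {g : G} {x y : X} (h : G) (hg : g ∈ C.W x y) : h * g * h⁻¹ ∈ C.W (h • x) (h • y) :=
  ⟨conjZ h hg.1, by
    change (h * g * h⁻¹) • h • y = h • y
    rw [mul_smul, mul_smul, inv_smul_smul, (mem_W.1 hg).2]⟩

theorem conjW_iff {g : G} {x y : X} (h : G) : g ∈ C.W x y ↔ h * g * h⁻¹ ∈ C.W (h • x) (h • y) :=
  ⟨conjW h, fun hg => by simpa [mul_assoc] using conjW h⁻¹ hg⟩

theorem cardW {x y x' y' : X} (h : C.non x y) (h' : C.non x' y') :
    Nat.card (C.W x y) = Nat.card (C.W x' y') := by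
  obtain ⟨g, rfl, rfl⟩ := trN h h'
  exact r3_card_conj _ _ g fun _ => conjW_iff g

variable (C) in
/-- a central element of a kernel fixes a second point -/
def NS : Prop := ∃ (w : G) (a c : X), w ≠ 1 ∧ w ∈ C.Z a ∧ a ≠ c ∧ w • c = c

theorem exW (hN : C.NS) {x y : X} (h : C.non x y) : ∃ w ∈ C.W x y, w ≠ 1 := by
  obtain ⟨w, a, c, h1, hw, hac, hc⟩ := hN
  obtain ⟨g, rfl, rfl⟩ := trN (fix_non h1 hw.1 (K_fix hw.1) hc hac) h
  exact ⟨_, conjW g ⟨hw, hc⟩, fun e => h1 (by simpa using e)⟩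

theorem exZ_move (hN : C.NS) {x y : X} (h : C.non x y) : ∃ g ∈ C.Z y, g • x ≠ x := by
  by_contra hc
  push Not at hc
  have hall : ∀ p, C.non y p → ∀ g ∈ C.Z y, g • p = p := by
    intro p hp g hg
    obtain ⟨t, e1, e2⟩ := trN hp (non_symm h)
    have := hc _ (by have := conjZ t hg; rwa [e1] at this)
    rw [← e2, mul_smul, mul_smul, inv_smul_smul] at this
    exact smul_left_cancel t this
  obtain ⟨p, q, hp, hq, hpq⟩ := exEdge (C := C) y
  obtain ⟨w, hw, h1⟩ := exW hN (non_symm h)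
  exact (fix_non h1 hw.1.1 (hall p hp w hw.1) (hall q hq w hw.1) (adj_ne hpq)).2 hpq

theorem W_le (hN : C.NS) {x y : X} (h : C.non x y) : C.W x y ≤ C.Z y := by
  obtain ⟨g, hg, hne⟩ := exZ_move hN h
  have key : ∀ w ∈ C.W x y, w ∈ C.Z (g • x) ∧ w • g • x = g • x := by
    intro w hw
    have hc := hg.2 w (memK_of_memK hw.1.1 hw.2)
    refine ⟨?_, by rw [← mul_smul, hc, mul_smul, K_fix hw.1.1]⟩
    have := conjZ g hw.1
    rwa [← hc, mul_inv_cancel_right] at this
  obtain ⟨w, hw, h1⟩ := exW hN h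
  have hn : C.non x (g • x) := fix_non h1 hw.1.1 (K_fix hw.1.1) (key w hw).2 hne.symm
  have heq : C.W x y = C.W x (g • x) :=
    eq_of_le_of_card_ge (fun w hw => ⟨hw.1, (key w hw).2⟩) (cardW hn h).le
  obtain ⟨t, e1, e2⟩ := trN h hn
  intro v hv
  have h2 := conjW t hv
  rw [e1, e2, ← heq] at h2
  have h3 := conjZ t⁻¹ (key _ h2).1
  rw [← e2, inv_smul_smul] at h3
  simpa [mul_assoc] using h3

variable (C) in
/-- `p` lies on the line through `x` and `y` -/
def on (x y p : X) : Prop := ∀ w ∈ C.W x y, w • p = p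

theorem on_left (x y : X) : C.on x y x := fun _ hw => K_fix hw.1.1
theorem on_right (x y : X) : C.on x y y := fun _ hw => hw.2

theorem on_smul (g : G) {x y p : X} (h : C.on x y p) : C.on (g • x) (g • y) (g • p) := by
  intro w hw
  have h1 := conjW g⁻¹ hw
  rw [inv_smul_smul, inv_smul_smul] at h1
  have := h _ h1
  rwa [mul_smul, mul_smul, inv_inv, inv_smul_eq_iff] at this

theorem W_le_on (hN : C.NS) {x y p : X} (h : C.non x y) (hp : C.on x y p) : C.W x y ≤ C.Z p := by
  by_cases e : x = p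
  · subst e; exact inf_le_left
  · obtain ⟨w, hw, h1⟩ := exW hN h
    exact fun v hv => W_le hN (fix_non h1 hw.1.1 (K_fix hw.1.1) (hp w hw) e) ⟨hv.1, hp v hv⟩

theorem on_non (hN : C.NS) {x y p q : X} (h : C.non x y) (hp : C.on x y p) (hq : C.on x y q)
    (hpq : p ≠ q) : C.non p q := by
  obtain ⟨w, hw, h1⟩ := exW hN h
  exact fix_non h1 hw.1.1 (hp w hw) (hq w hw) hpq

theorem W_eq (hN : C.NS) {x y p q : X} (h : C.non x y) (hp : C.on x y p) (hq : C.on x y q)
    (hpq : p ≠ q) : C.W x y = C.W p q :=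
  eq_of_le_of_card_ge (fun w hw => ⟨W_le_on hN h hp hw, hq w hw⟩)
    (cardW (on_non hN h hp hq hpq) h).le

theorem on_congr (hN : C.NS) {x y p q : X} (h : C.non x y) (hp : C.on x y p) (hq : C.on x y q)
    (hpq : p ≠ q) (r : X) : C.on x y r ↔ C.on p q r := by
  unfold on; rw [W_eq hN h hp hq hpq]

theorem on_of_comm {x y q : X} {g : G} (hg : ∀ w ∈ C.W x y, g * w = w * g) (hq : C.on x y q) :
    C.on x y (g • q) := fun w hw => by rw [← mul_smul, ← hg w hw, mul_smul, hq w hw]

theorem K_comm_W (hN : C.NS) {x y p : X} (h : C.non x y) (hp : C.on x y p) {g : G}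
    (hg : g ∈ C.K p) : ∀ w ∈ C.W x y, g * w = w * g := fun _ hw => (W_le_on hN h hp hw).2 g hg

theorem on_K (hN : C.NS) {x y p q : X} (h : C.non x y) (hp : C.on x y p) (hq : C.on x y q) {g : G}
    (hg : g ∈ C.K p) : C.on x y (g • q) := on_of_comm (K_comm_W hN h hp hg) hq

theorem on_of_two (hN : C.NS) {x y p q z : X} (h : C.non x y) (hp : C.on x y p) (hq : C.on x y q)
    (hpq : p ≠ q) (hpz : C.non p z) (hqz : C.non q z) : C.on x y z := by
  intro w hw
  by_contra hne
  have h1 : C.on p z (w • z) := on_K hN hpz (on_left _ _) (on_right _ _) (W_le_on hN h hp hw).1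
  have h2 : C.on q z (w • z) := on_K hN hqz (on_left _ _) (on_right _ _) (W_le_on hN h hq hw).1
  have h3 : C.on p z q := by
    rw [on_congr hN hpz (on_right _ _) h1 (Ne.symm hne),
      ← on_congr hN hqz (on_right _ _) h2 (Ne.symm hne)]
    exact on_left _ _
  have h4 : C.on x y z := by
    rw [on_congr hN h hp hq hpq, ← on_congr hN hpz (on_left _ _) h3 hpq]
    exact on_right _ _
  exact hne (h4 w hw)

theorem ex_off (hN : C.NS) {x y p : X} (h : C.non x y) (hp : C.on x y p) :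
    ∃ z, C.non p z ∧ ¬ C.on x y z := by
  by_contra hc
  push Not at hc
  obtain ⟨a, b, ha, hb, hab⟩ := exEdge (C := C) p
  exact (on_non hN h (hc a ha) (hc b hb) (adj_ne hab)).2 hab

theorem adj_of_off (hN : C.NS) {x y p q z : X} (h : C.non x y) (hp : C.on x y p)
    (hq : C.on x y q) (hpq : p ≠ q) (hqz : C.non q z) (hz : ¬ C.on x y z) : C.adj p z := by
  rcases tri (C := C) p z with e | e | e
  · exact absurd (e ▸ hp) hz
  · exact e
  · exact absurd (on_of_two hN h hp hq hpq e hqz) hz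

theorem ex_other (x y p : X) (h : C.non x y) : ∃ q, C.on x y q ∧ p ≠ q := by
  by_cases e : p = x
  · exact ⟨y, on_right _ _, e ▸ h.1⟩
  · exact ⟨x, on_left _ _, e⟩

theorem ex_proj (hN : C.NS) {x y p b : X} (h : C.non x y) (hp : C.on x y p) (hb : C.adj p b) :
    ∃ q, C.on x y q ∧ C.non q b := by
  obtain ⟨q, hq, hpq⟩ := ex_other x y p h
  obtain ⟨z, hz, hz'⟩ := ex_off hN h hq
  obtain ⟨g, hg, rfl⟩ := C.Kreg (adj_of_off hN h hp hq hpq hz hz') hb
  exact ⟨_, on_K hN h hp hq hg, non_inv g hz⟩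

theorem proj_unique (hN : C.NS) {x y p q z : X} (h : C.non x y) (hp : C.on x y p)
    (hq : C.on x y q) (hpz : C.non p z) (hqz : C.non q z) (hz : ¬ C.on x y z) : p = q :=
  by_contra fun hne => hz (on_of_two hN h hp hq hne hpz hqz)

theorem off_of_adj (hN : C.NS) {x y p b : X} (h : C.non x y) (hp : C.on x y p) (hb : C.adj p b) :
    ¬ C.on x y b := fun hb' => (on_non hN h hp hb' (adj_ne hb)).2 hb

theorem two_lines (hN : C.NS) {x y q z z' : X} (h : C.non x y) (hq : C.on x y q) (hz : C.non q z)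
    (hz' : C.non q z') (ho : ¬ C.on x y z) (ho' : ¬ C.on x y z') : C.on q z z' := by
  obtain ⟨p, hp, hpq⟩ := ex_other x y q h
  obtain ⟨g, hg, rfl⟩ := C.Kreg (adj_of_off hN h hp hq hpq.symm hz ho)
    (adj_of_off hN h hp hq hpq.symm hz' ho')
  have : g • q = q := proj_unique hN h (on_K hN h hp hq hg) hq (non_inv g hz) hz' ho'
  exact on_K hN hz (on_left _ _) (on_right _ _) (memK_of_memK hg this)

theorem NS_even_m (hN : C.NS) : Even C.m := by
  by_contra hm
  rw [Nat.not_even_iff_odd] at hm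
  obtain ⟨c1, h1⟩ := exNon (C := C) C.x0
  obtain ⟨c2, h2, h2'⟩ := ex_off hN h1 (on_left _ _)
  obtain ⟨h, hh, e⟩ := trN h1 h2
  obtain ⟨κ, hκ, g, ga, gb, rfl⟩ := decomp C.h01 hh
  have hg : ¬ C.on C.x0 c1 (g • c1) := fun hc =>
    h2' (by rw [← e, mul_smul]; exact on_K hN h1 (on_left _ _) hc hκ)
  have hn : ∀ t : G, t • C.x0 = C.x0 → C.non C.x0 (t • c1) := fun t ht => by
    have := non_inv t h1; rwa [ht] at this
  have hgg : C.on C.x0 c1 ((g * g) • c1) := by
    by_contra hc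
    have := two_lines hN h1 (on_left _ _) (hn g ga) (hn (g * g) (by rw [mul_smul, ga, ga])) hg hc
    have := on_smul g⁻¹ this
    rw [inv_smul_smul, mul_smul, inv_smul_smul, inv_smul_eq_iff.2 ga.symm] at this
    exact hg this
  have hpow : ∀ r : ℕ, ((g * g) ^ r) • C.x0 = C.x0 ∧ C.on C.x0 c1 (((g * g) ^ r) • c1) := by
    intro r
    induction r with
    | zero => exact ⟨by simp, by simpa using on_right _ _⟩
    | succ r ih =>
      refine ⟨by rw [pow_succ', mul_smul, ih.1, mul_smul, ga, ga], ?_⟩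
      have h3 := on_smul (g * g) ih.2
      have h4 : (g * g) • C.x0 = C.x0 := by rw [mul_smul, ga, ga]
      rw [h4] at h3
      rw [pow_succ', mul_smul, on_congr hN h1 (on_left _ _) hgg (hn _ h4).1]
      exact h3
  obtain ⟨r, hr⟩ := r3_odd_root hm (pow_m C.h01 ga gb)
  exact hg (hr ▸ (hpow r).2)

variable (C) in
open Classical in
/-- the line as a finset -/
noncomputable def line (x y : X) : Finset X := univ.filter (C.on x y)

@[simp] theorem mem_line {x y p : X} : p ∈ C.line x y ↔ C.on x y p := by simp [line]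

theorem card_line {x y x' y' : X} (h : C.non x y) (h' : C.non x' y') :
    (C.line x y).card = (C.line x' y').card := by
  obtain ⟨g, rfl, rfl⟩ := trN h h'
  refine card_bij (fun p _ => g • p) (fun p hp => mem_line.2 (on_smul g (mem_line.1 hp)))
    (fun a _ b _ e => smul_left_cancel g e) fun p hp => ⟨g⁻¹ • p, ?_, by simp⟩
  have := on_smul g⁻¹ (mem_line.1 hp)
  simpa using this

theorem card_off (hN : C.NS) [DecidableEq X] {x y q : X} (h : C.non x y) (hq : C.on x y q) :
    (C.nn q \ C.line x y).card = (C.line x y).card - 1 ∧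
      C.l = 2 * ((C.line x y).card - 1) := by
  obtain ⟨z, hz, hz'⟩ := ex_off hN h hq
  have e1 : C.nn q \ C.line x y = (C.line q z).erase q := by
    ext r
    simp only [Finset.mem_sdiff, mem_nn, mem_line, mem_erase]
    constructor
    · rintro ⟨a, b⟩; exact ⟨a.1.symm, two_lines hN h hq hz a hz' b⟩
    · rintro ⟨a, b⟩
      refine ⟨on_non hN hz (on_left _ _) b a.symm, fun c => hz' ?_⟩
      rw [on_congr hN h hq c a.symm, ← on_congr hN hz (on_left _ _) b a.symm]
      exact on_right _ _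
  have e2 : C.nn q ∩ C.line x y = (C.line x y).erase q := by
    ext r
    simp only [Finset.mem_inter, mem_nn, mem_line, mem_erase]
    exact ⟨fun ⟨a, b⟩ => ⟨a.1.symm, b⟩, fun ⟨a, b⟩ => ⟨on_non hN h hq b a.symm, b⟩⟩
  have c1 : (C.nn q \ C.line x y).card = (C.line x y).card - 1 := by
    rw [e1, card_erase_of_mem (mem_line.2 (on_left _ _)), card_line hz h]
  refine ⟨c1, ?_⟩
  have := card_sdiff_add_card_inter (C.nn q) (C.line x y)
  rw [c1, e2, card_erase_of_mem (mem_line.2 hq), card_nn] at this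
  omega

theorem k_eq_sq (hN : C.NS) {x y : X} (h : C.non x y) :
    C.k = ((C.line x y).card - 1) * ((C.line x y).card - 1) := by
  classical
  have := card_mul_eq_card_mul (s := C.nb x) (t := (C.line x y).erase x) (fun b p => C.non p b)
    (m := 1) (n := (C.line x y).card - 1) (fun b hb => by
      obtain ⟨q, hq, hqb⟩ := ex_proj hN h (on_left _ _) (mem_nb.1 hb)
      rw [card_eq_one]
      refine ⟨q, ?_⟩
      ext p
      simp only [mem_bipartiteAbove, mem_erase, mem_line, mem_singleton]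
      constructor
      · rintro ⟨⟨-, a⟩, b'⟩
        exact proj_unique hN h a hq b' hqb (off_of_adj hN h (on_left _ _) (mem_nb.1 hb))
      · rintro rfl
        exact ⟨⟨fun e => hqb.2 (e ▸ mem_nb.1 hb), hq⟩, hqb⟩)
    (fun p hp => by
      rw [mem_erase, mem_line] at hp
      rw [← (card_off hN h hp.2).1]
      congr 1
      ext b
      simp only [mem_bipartiteBelow, mem_nb, Finset.mem_sdiff, mem_nn, mem_line]
      exact ⟨fun ⟨a, c⟩ => ⟨c, off_of_adj hN h (on_left _ _) a⟩,
        fun ⟨a, c⟩ => ⟨adj_of_off hN h (on_left _ _) hp.2 hp.1.symm a c, a⟩⟩)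
  rwa [card_nb, mul_one, card_erase_of_mem (mem_line.2 (on_left _ _))] at this

theorem line_le (hN : C.NS) {x y : X} (h : C.non x y) : (C.line x y).card ≤ 4 := by
  have hm := NS_even_m hN
  obtain ⟨b, hb⟩ := exAdj (C := C) x
  obtain ⟨i, hi1, hi, hix, hib⟩ := ex_inv hm hb
  obtain ⟨c, hc, hcb⟩ := ex_proj hN h (on_left _ _) hb
  obtain ⟨w0, hw0, hw1⟩ := exW hN h
  have hiW : ∀ w ∈ C.W x y, i * w * i = w⁻¹ := fun w hw => inverts hm hi1 hi hix w hw.1.1
  have hSK : ∀ g ∈ centralizer (C.W x y : Set G), ∀ p, C.on x y p → g • p = p → g ∈ C.K p :=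
    fun g hg p hp e => memK_of_comm e (W_le_on hN h hp hw0).1 hw1 (hg w0 hw0).symm
  refine r3_sharp (centralizer (C.W x y : Set G)) _ i x c (mem_line.2 (on_left _ _))
    (mem_line.2 hc) (fun g hg p hp => mem_line.2 (on_of_comm (fun w hw => (hg w hw).symm)
      (mem_line.1 hp))) (fun p hp q hq q' hq' h1 h2 => ?_) (fun g hg p hp q hq hpq e1 e2 => ?_)
    (fun g hg p hp e1 e2 r hr => ?_) hi (fun g hg w hw => ?_) (fun p hp => ?_) hix
    (fun p hp e => ?_)
  · rw [mem_line] at hp hq hq'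
    obtain ⟨z, hz, hz'⟩ := ex_off hN h hq
    obtain ⟨z', hy, hy'⟩ := ex_off hN h hq'
    obtain ⟨g, hg, rfl⟩ := C.Kreg (adj_of_off hN h hp hq h1.symm hz hz')
      (adj_of_off hN h hp hq' h2.symm hy hy')
    exact ⟨g, fun w hw => (K_comm_W hN h hp hg w hw).symm, K_fix hg,
      proj_unique hN h (on_K hN h hp hq hg) hq' (non_inv g hz) hy hy'⟩
  · rw [mem_line] at hp hq
    have h1 := hSK g hg p hp e1
    have : g ∈ C.W x y := by
      rw [W_eq hN h hp hq hpq]
      exact ⟨⟨h1, fun a ha => K_comm hm ha h1⟩, e2⟩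
    exact fun r hr => mem_line.1 hr g this
  · obtain ⟨s, hs⟩ := r3_odd_root (odd_k hm) (pow_k (hSK g hg p (mem_line.1 hp) e1))
    have : ∀ s : ℕ, ((g * g) ^ s) • r = r := fun s => by
      induction s with
      | zero => simp
      | succ s ih => rw [pow_succ', mul_smul, ih, mul_smul, e2 r hr]
    rw [hs]; exact this s
  · have e1 := hiW w hw
    have e2 := hg _ ((C.W x y).inv_mem hw)
    have e3 : w * i = i * w⁻¹ := by rw [← e1, ← mul_assoc, ← mul_assoc, hi, one_mul]
    have e4 : w⁻¹ * i = i * w := by rw [← e1, mul_assoc, hi, mul_one]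
    calc w * (i * g * i) = (w * i) * g * i := by group
      _ = i * (w⁻¹ * g) * i := by rw [e3]; group
      _ = i * g * (w⁻¹ * i) := by rw [e2]; group
      _ = i * g * i * w := by rw [e4]; group
  · rw [mem_line] at hp ⊢
    intro w hw
    have e3 : w * i = i * w⁻¹ := by rw [← hiW w hw, ← mul_assoc, ← mul_assoc, hi, one_mul]
    rw [← mul_smul, e3, mul_smul, hp _ ((C.W x y).inv_mem hw)]
  · rw [mem_line] at hp
    by_contra hne
    push Not at hne
    have hpb : C.adj p b :=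
      adj_of_off hN h hp hc hne.2 hcb (off_of_adj hN h (on_left _ _) hb)
    exact hi1 (C.frob (C.symm hb) (C.symm hpb) hne.1.symm hib hix e)

theorem NS_card (hN : C.NS) : C.k = 9 ∧ C.l = 6 := by
  classical
  have h := non0 (C := C)
  have h1 := line_le hN h
  have h2 := k_eq_sq hN h
  have h3 := (card_off hN h (on_left _ _)).2
  have h4 := odd_k (NS_even_m hN)
  have h5 := two_le_k (C := C)
  generalize (C.line C.x0 C.z0).card = s at *
  obtain ⟨r, hr⟩ := h4
  interval_cases s <;> omega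

end Ctx

end Cfsg.Lib.R3F
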