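import Cfsg.Agent.Lib.R3F.Setup

/-! Construction of the setting from the hypotheses. -/

set_option autoImplicit false

namespace Cfsg.Lib.R3F

open MulAction Subgroup
open scoped Pointwise

variable {G X : Type*} [Group G] [Finite G] [MulAction G X]

theorem r3_prim_rel (hprim : IsPreprimitive G X) (R : X → X → Prop) (hR : Equivalence R)
    (hinv : ∀ (g : G) x y, R x y → R (g • x) (g • y)) (a : X) :
    (∀ y, R a y → y = a) ∨ ∀ y, R a y := by
  have hb : IsBlock G {y | R a y} := by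
    rw [isBlock_iff_smul_eq_or_disjoint]
    intro g
    by_cases h : R a (g • a)
    · left
      ext y
      rw [Set.mem_smul_set_iff_inv_smul_mem]
      simp only [Set.mem_ofPred_eq]
      constructor
      · intro h1
        have := hinv g _ _ h1
        rw [smul_inv_smul] at this
        exact hR.trans h this
      · intro h1
        have := hinv g⁻¹ _ _ (hR.trans (hR.symm h) h1)
        rwa [inv_smul_smul] at this
    · right
      rw [Set.disjoint_left]
      intro y h1 h2
      rw [Set.mem_smul_set_iff_inv_smul_mem] at h1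
      have := hinv g _ _ h1
      rw [smul_inv_smul] at this
      exact h (hR.trans h2 (hR.symm this))
  rcases hprim.isTrivialBlock_of_isBlock hb with h | h
  · exact Or.inl fun y hy => h hy (hR.refl a)
  · exact Or.inr fun y => by have : y ∈ {y | R a y} := h ▸ Set.mem_univ y; exact this

theorem r3_kernel (adj : X → X → Prop) (hinv : ∀ (g : G) {x y}, adj x y → adj (g • x) (g • y))
    (htr : ∀ {x y x' y'}, adj x y → adj x' y' → ∃ g : G, g • x = x' ∧ g • y = y')
    (hfrob : ∀ {g : G} {x y z}, adj x y → adj x z → y ≠ z → g • x = x → g • y = y → g • z = z →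
      g = 1) {x y z : X} (hxy : adj x y) (hxz : adj x z) (hyz : y ≠ z)
    (hfix : ∃ g : G, g ≠ 1 ∧ g • x = x ∧ g • y = y) :
    ∃ K : Subgroup G, (∀ g, g ∈ K ↔ g • x = x ∧ (g = 1 ∨ ∀ y, adj x y → g • y ≠ y)) ∧
      (∀ y z, adj x y → adj x z → ∃ g ∈ K, g • y = z) ∧ Group.IsNilpotent K := by
  set S := stabilizer G x with hS
  set H : Subgroup S := (stabilizer G y).subgroupOf S with hH
  have hmem : ∀ g e : S, e ∈ MulAut.conj g • H ↔ (e : G) • (g : G) • y = (g : G) • y := by
    intro g e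
    rw [Subgroup.mem_pointwise_smul_iff_inv_smul_mem, hH, mem_subgroupOf, mem_stabilizer_iff]
    simp only [MulAut.smul_def, MulAut.conj_inv_apply, coe_mul, coe_inv, mul_smul,
      inv_smul_eq_iff]
  have hadj : ∀ g : S, adj x ((g : G) • y) := fun g => by
    have := hinv g hxy; rwa [mem_stabilizer_iff.1 g.2] at this
  have hF : IsFrobeniusComplement H := by
    refine ⟨?_, ?_, fun g hg => ?_⟩
    · obtain ⟨g, h1, h2, h3⟩ := hfix
      intro e
      have : (⟨g, h2⟩ : S) ∈ H := h3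
      rw [e] at this
      exact h1 (congrArg Subtype.val (mem_bot.1 this))
    · obtain ⟨g, h1, h2⟩ := htr hxy hxz
      intro e
      have : (⟨g, h1⟩ : S) ∈ H := e ▸ mem_top _
      exact hyz (Eq.symm (h2.symm.trans this))
    · rw [eq_bot_iff]
      intro e he
      exact mem_bot.2 (Subtype.ext (hfrob hxy (hadj g) (fun e' => hg e'.symm) e.2 he.1
        ((hmem g e).1 he.2)))
  obtain ⟨N, hN, hNn, hnil⟩ := Cfsg.Agent.S0042.result H hF
  obtain ⟨-, -, hsup, -⟩ := Cfsg.Lib.Frobenius.kernel_of_coe_eq hF hN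
  have hNm : ∀ e : S, e ∈ N ↔ (e = 1 ∨ ∀ g : S, e ∉ MulAut.conj g • H) := fun e => by
    rw [← SetLike.mem_coe, hN]; rfl
  have hy : ∀ w, adj x w → ∃ g ∈ N.map S.subtype, g • y = w := by
    intro w hw
    obtain ⟨g, h1, h2⟩ := htr hxy hw
    have : (⟨g, h1⟩ : S) ∈ N ⊔ H := hsup ▸ mem_top _
    rw [← SetLike.mem_coe, normal_mul] at this
    obtain ⟨a, ha, b, hb, e⟩ := this
    refine ⟨a, ⟨a, ha, rfl⟩, ?_⟩
    have e' : (a : G) * b = g := congrArg Subtype.val e
    have hb' : (b : G) • y = y := hb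
    rw [← h2, ← e', mul_smul, hb']
  refine ⟨N.map S.subtype, fun g => ?_, fun w w' hw hw' => ?_, ?_⟩
  · constructor
    · rintro ⟨e, he, rfl⟩
      refine ⟨e.2, ?_⟩
      rcases (hNm e).1 he with h | h
      · left; rw [h]; rfl
      · right
        intro w hw e'
        obtain ⟨g, h1, h2⟩ := htr hxy hw
        exact h ⟨g, h1⟩ ((hmem _ _).2 (by rw [show ((⟨g, h1⟩ : S) : G) • y = w from h2]; exact e'))
    · rintro ⟨h1, h2⟩
      refine ⟨⟨g, h1⟩, (hNm _).2 ?_, rfl⟩
      rcases h2 with h | h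
      · left; exact Subtype.ext h
      · right; exact fun g' hg' => h _ (hadj g') ((hmem _ _).1 hg')
  · obtain ⟨a, ha, e⟩ := hy w hw
    obtain ⟨b, hb, e'⟩ := hy w' hw'
    exact ⟨b * a⁻¹, mul_mem hb (inv_mem ha), by rw [mul_smul, ← e, inv_smul_smul, e']⟩
  · exact Group.nilpotent_of_mulEquiv (N.equivMapOfInjective S.subtype S.subtype_injective)

theorem r3_make [Fintype X] [FaithfulSMul G X] (heven : Even (Nat.card G))
    (hprim : IsPreprimitive G X) (A : X)
    (h3 : Nat.card (orbitRel.Quotient ↥(stabilizer G A) X) = 3) (B : X) (hBA : B ≠ A)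
    (hfaith : ∀ g ∈ stabilizer G A, (∀ h ∈ stabilizer G A, g • (h • B) = h • B) → g = 1)
    (hfix : ∃ g ∈ stabilizer G A, g ≠ 1 ∧ g • B = B)
    (hfrob : ∀ g ∈ stabilizer G A, ∀ h ∈ stabilizer G A,
      g • B = B → g • (h • B) = h • B → h • B ≠ B → g = 1) : Nonempty (Ctx G X) := by
  classical
  let adj : X → X → Prop := fun x y => ∃ g : G, g • A = x ∧ g • B = y
  have htrans : ∀ x y : X, ∃ g : G, g • x = y := hprim.exists_smul_eq
  have hirr : ∀ x, ¬ adj x x := by
    rintro x ⟨g, h1, h2⟩; exact hBA (smul_left_cancel g (h2.trans h1.symm))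
  have hinv : ∀ (g : G) {x y}, adj x y → adj (g • x) (g • y) := by
    rintro g x y ⟨h, rfl, rfl⟩; exact ⟨g * h, mul_smul _ _ _, mul_smul _ _ _⟩
  have htrA : ∀ {x y x' y'}, adj x y → adj x' y' → ∃ g : G, g • x = x' ∧ g • y = y' := by
    rintro x y x' y' ⟨g, rfl, rfl⟩ ⟨h, rfl, rfl⟩
    exact ⟨h * g⁻¹, by rw [mul_smul, inv_smul_smul], by rw [mul_smul, inv_smul_smul]⟩
  let q : X → orbitRel.Quotient ↥(stabilizer G A) X := Quotient.mk _
  have hq : ∀ x y, q x = q y ↔ ∃ g : G, g • A = A ∧ g • y = x := fun x y => by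
    rw [Quotient.eq, orbitRel_apply]
    exact ⟨fun ⟨g, hg⟩ => ⟨g, g.2, hg⟩, fun ⟨g, h1, h2⟩ => ⟨⟨g, h1⟩, h2⟩⟩
  have hqA : ∀ y, q y = q A → y = A := fun y h => by
    obtain ⟨g, h1, h2⟩ := (hq _ _).1 h; rw [← h2, h1]
  have hqB : ∀ y, q y = q B ↔ adj A y := fun y => hq _ _
  have : Fintype (orbitRel.Quotient ↥(stabilizer G A) X) := Fintype.ofFinite _
  rw [Nat.card_eq_fintype_card] at h3
  have hnonA : ∀ y y', A ≠ y → ¬ adj A y → A ≠ y' → ¬ adj A y' → q y = q y' := by
    intro y y' h1 h2 h1' h2'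
    by_contra hne
    have : ({q A, q B, q y, q y'} : Finset _).card ≤ 3 := h3 ▸ Finset.card_le_univ _
    have a1 : q A ≠ q B := fun e => hBA (hqA _ e.symm)
    have a2 : q A ≠ q y := fun e => h1 (hqA _ e.symm).symm
    have a3 : q A ≠ q y' := fun e => h1' (hqA _ e.symm).symm
    have a4 : q B ≠ q y := fun e => h2 ((hqB _).1 e.symm)
    have a5 : q B ≠ q y' := fun e => h2' ((hqB _).1 e.symm)
    rw [Finset.card_insert_of_notMem (by simp [a1, a2, a3]),
      Finset.card_insert_of_notMem (by simp [a4, a5]), Finset.card_pair hne] at this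
    omega
  have htrN : ∀ {x y x' y'}, x ≠ y → ¬ adj x y → x' ≠ y' → ¬ adj x' y' →
      ∃ g : G, g • x = x' ∧ g • y = y' := by
    intro x y x' y' h1 h2 h1' h2'
    obtain ⟨g, rfl⟩ := htrans A x
    obtain ⟨g', rfl⟩ := htrans A x'
    obtain ⟨h, e1, e2⟩ := (hq _ _).1 (hnonA (g'⁻¹ • y') (g⁻¹ • y)
      (fun e => h1' (by rw [e, smul_inv_smul])) (fun e => h2' (by simpa using hinv g' e))
      (fun e => h1 (by rw [e, smul_inv_smul])) (fun e => h2 (by simpa using hinv g e)))
    exact ⟨g' * h * g⁻¹, by rw [mul_smul, mul_smul, inv_smul_smul, e1],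
      by rw [mul_smul, mul_smul, e2, smul_inv_smul]⟩
  have hexN : ∃ y, A ≠ y ∧ ¬ adj A y := by
    by_contra hc
    push Not at hc
    have : (Finset.univ : Finset (orbitRel.Quotient ↥(stabilizer G A) X)) ⊆ {q A, q B} := by
      intro w _
      obtain ⟨y, rfl⟩ := Quotient.exists_rep w
      by_cases h : A = y
      · subst h; exact Finset.mem_insert_self _ _
      · exact Finset.mem_insert_of_mem (Finset.mem_singleton.2 ((hqB y).2 (hc y h)))
    have h2 := (Finset.card_le_card this).trans Finset.card_le_two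
    rw [Finset.card_univ] at h2
    omega
  have hsymm : ∀ {x y}, adj x y → adj y x := by
    have : Fact (Nat.Prime 2) := ⟨Nat.prime_two⟩
    obtain ⟨t, ht⟩ := exists_prime_orderOf_dvd_card' 2 heven.two_dvd
    have ht1 : t ≠ 1 := by rintro rfl; simp at ht
    have htt : ∀ x : X, t • t • x = x := fun x => by
      rw [← mul_smul, ← pow_two, ← ht, pow_orderOf_eq_one, one_smul]
    obtain ⟨p, hp⟩ : ∃ p : X, t • p ≠ p := by
      by_contra hc
      push Not at hc
      exact ht1 (eq_of_smul_eq_smul (α := X) fun x => by rw [hc x, one_smul])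
    intro x y hxy
    by_cases h : adj p (t • p)
    · obtain ⟨g, rfl, rfl⟩ := htrA h hxy
      have := hinv t h
      rw [htt] at this
      exact hinv g this
    · by_contra hc
      obtain ⟨g, e1, e2⟩ := htrN (fun e : y = x => hirr x (by rw [e] at hxy; exact hxy)) hc hp.symm h
      have := hinv t (hinv g hxy)
      rw [e1, e2, htt] at this
      exact h this
  have hfr : ∀ {g : G} {x y z}, adj x y → adj x z → y ≠ z → g • x = x → g • y = y → g • z = z →
      g = 1 := by
    rintro g x y z ⟨g0, rfl, rfl⟩ ⟨g1, e, rfl⟩ hne h1 h2 h3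
    have := hfrob (g0⁻¹ * g * g0) (by rw [mem_stabilizer_iff, mul_smul, mul_smul, h1, inv_smul_smul])
      (g0⁻¹ * g1) (by rw [mem_stabilizer_iff, mul_smul, e, inv_smul_smul])
      (by rw [mul_smul, mul_smul, h2, inv_smul_smul])
      (by simp only [mul_smul, smul_inv_smul]; rw [h3])
      (fun e' => hne (by rw [mul_smul, inv_smul_eq_iff] at e'; exact e'.symm))
    calc g = g0 * (g0⁻¹ * g * g0) * g0⁻¹ := by group
      _ = 1 := by rw [this]; group
  have hAB : adj A B := ⟨1, one_smul _ _, one_smul _ _⟩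
  have hfix' : ∀ {x y}, adj x y → ∃ g : G, g ≠ 1 ∧ g • x = x ∧ g • y = y := by
    rintro x y ⟨h, rfl, rfl⟩
    obtain ⟨g, h1, h2, h3⟩ := hfix
    refine ⟨h * g * h⁻¹, fun e => h2 ?_, by rw [mul_smul, mul_smul, inv_smul_smul, h1],
      by rw [mul_smul, mul_smul, inv_smul_smul, h3]⟩
    calc g = h⁻¹ * (h * g * h⁻¹) * h := by group
      _ = 1 := by rw [e]; group
  have hP1 : ∃ x y z, adj x y ∧ adj y z ∧ x ≠ z ∧ ¬ adj x z := by
    by_contra hc
    push Not at hc
    rcases r3_prim_rel hprim (fun x y => x = y ∨ adj x y)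
      ⟨fun _ => Or.inl rfl, fun h => h.imp Eq.symm hsymm, fun {x y z} h1 h2 => by
        rcases h1 with rfl | h1
        · exact h2
        · rcases h2 with rfl | h2
          · exact Or.inr h1
          · by_cases e : x = z
            · exact Or.inl e
            · exact Or.inr (hc x y z h1 h2 e)⟩
      (fun g x y h => h.imp (congrArg _) (hinv g)) A with h | h
    · exact hBA (h B (Or.inr hAB))
    · obtain ⟨y, h1, h2⟩ := hexN
      exact (h y).elim h1 h2
  have hP2 : ∃ x y z, x ≠ y ∧ ¬ adj x y ∧ y ≠ z ∧ ¬ adj y z ∧ adj x z := by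
    by_contra hc
    push Not at hc
    rcases r3_prim_rel hprim (fun x y => ¬ adj x y)
      ⟨hirr, fun h e => h (hsymm e), fun {x y z} h1 h2 => by
        by_cases e : x = y
        · exact e ▸ h2
        · by_cases e' : y = z
          · exact e' ▸ h1
          · exact hc x y z e h1 e' h2⟩
      (fun g x y h e => h (by simpa using hinv g⁻¹ e)) A with h | h
    · obtain ⟨y, h1, h2⟩ := hexN
      exact h1 (h y h2).symm
    · exact h B hAB
  obtain ⟨x0, y0, z0, h01, h12, h02, h02'⟩ := hP1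
  have hK : ∀ x, ∃ K : Subgroup G,
      (∀ g, g ∈ K ↔ g • x = x ∧ (g = 1 ∨ ∀ y, adj x y → g • y ≠ y)) ∧
      (∀ y z, adj x y → adj x z → ∃ g ∈ K, g • y = z) ∧ Group.IsNilpotent K := fun x => by
    obtain ⟨g, rfl⟩ := htrans y0 x
    exact r3_kernel adj hinv htrA hfr (hinv g (hsymm h01)) (hinv g h12)
      (fun e => h02 (smul_left_cancel g e)) (hfix' (hinv g (hsymm h01)))
  choose K hK1 hK2 hK3 using hK
  exact ⟨⟨adj, K, x0, y0, z0, hirr, hsymm, hinv, htrA, htrN, htrans, h01, h12, h02, h02', hP2, hfr,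
    hK1 _ _, hK2 _ _ _, hK3, hfix' h01, heven⟩⟩

end Cfsg.Lib.R3F
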