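import Cfsg.Agent.Lib.R3F.Odd
import Cfsg.Agent.Lib.R3F.Make
import Cfsg.Agent.S0144
import Cfsg.Agent.S0494
import Cfsg.Agent.S0547
import Cfsg.Agent.Lib.Core.MinNormal

/-! Rank three groups with a Frobenius point stabilizer: the parameters. -/

set_option autoImplicit false

namespace Cfsg.Lib.R3F

open MulAction Subgroup Finset

theorem r3_r_le (t u m r e1 e2 : ℕ) (ht : 2 ≤ t) (hm : 0 < m) (htu : t * u = m) (h1 : e1 ≤ m)
    (h2 : e2 ≤ u) (h : (t + 2) * e1 + (t + 2) * t * e2 = m * r * (t + 1)) : r ≤ 2 := by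
  by_contra hc
  have h3 : m * 3 * (t + 1) ≤ m * r * (t + 1) := by gcongr; omega
  have h4 : (t + 2) * t * e2 ≤ (t + 2) * m := by rw [mul_assoc, ← htu]; gcongr
  have h5 : (t + 2) * e1 ≤ (t + 2) * m := by gcongr
  have h6 : m * 2 ≤ m * t := by gcongr
  nlinarith

theorem r3_e_lt (t u m e1 e2 : ℕ) (ht : 0 < t) (hu : 0 < u) (htu : t * u = m)
    (h : (t + 2) * e1 + (t + 2) * t * e2 = m * 1 * (t + 1)) : e2 < u := by
  by_contra hc
  have h4 : (t + 2) * t * u ≤ (t + 2) * t * e2 := by gcongr; omega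
  have h5 : 0 < t * u := Nat.mul_pos ht hu
  subst htu
  nlinarith [Nat.zero_le ((t + 2) * e1)]

theorem r3_R_ne (k t μ : ℕ) (hk : 0 < k) (ht : 2 ≤ t) (hμ : 2 ≤ μ) :
    2 * (k : ℤ) + (k + (k * t : ℕ)) * ((0 : ℕ) - μ) ≠ 0 := by
  push_cast
  have a1 : (0 : ℤ) < k := by exact_mod_cast hk
  have a2 : (2 : ℤ) ≤ t := by exact_mod_cast ht
  have a3 : (2 : ℤ) ≤ μ := by exact_mod_cast hμ
  have : (2 : ℤ) < (1 + t) * μ := by nlinarith
  nlinarith

theorem r3_R_ne' (k t u : ℕ) (hk : 0 < k) (ht : 2 ≤ t) :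
    2 * (k : ℤ) + (k + (k * t : ℕ)) * ((t * u : ℕ) - u) ≠ 0 := by
  push_cast
  have a1 : (0 : ℤ) < k := by exact_mod_cast hk
  have a2 : (2 : ℤ) ≤ t := by exact_mod_cast ht
  have a3 : (0 : ℤ) ≤ u := Nat.cast_nonneg _
  have : (0 : ℤ) ≤ t * u - u := by nlinarith
  positivity

namespace Ctx

variable {G X : Type*} [Group G] [Finite G] [Fintype X] [MulAction G X] {C : Ctx G X}

theorem caseA (hS : ¬ C.NS) (hm : Even C.m) {i : G} (hi : i ∈ C.JJ) (ia : i • C.x0 = C.x0)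
    (ib : i • C.y0 = C.y0) (hA : ∀ c, C.non C.x0 c → i • c ≠ c) :
    C.k = 3 ∧ C.m = 2 ∧ C.l = 6 := by
  classical
  obtain ⟨h1, h2, -⟩ := mem_JJ.1 hi
  have ha0 : C.a0 i = 2 := by
    rw [a0, Finset.card_eq_two]
    refine ⟨C.x0, C.y0, adj_ne C.h01, ?_⟩
    ext x
    simp only [mem_filter, mem_univ, true_and, mem_insert, mem_singleton]
    refine ⟨fun h => ?_, by rintro (rfl | rfl) <;> assumption⟩
    rcases tri (C := C) C.x0 x with e | e | e
    · exact Or.inl e.symm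
    · exact Or.inr (by_contra fun hne => h1 (C.frob e C.h01 hne ia h ib))
    · exact absurd h (hA x e)
  have hu : Odd C.u := by
    by_contra hu
    rw [Nat.not_odd_iff_even] at hu
    have : Fact (Nat.Prime 2) := ⟨Nat.prime_two⟩
    obtain ⟨t, ht⟩ := exists_prime_orderOf_dvd_card' (G := St G C.x0 C.z0) 2 (by
      rw [cardU non0]; exact hu.two_dvd)
    have t1 : (t : G) ≠ 1 := fun e => by
      have : t = 1 := Subtype.ext e
      rw [this] at ht; simp at ht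
    have t2 : (t : G) * t = 1 := by
      have := pow_orderOf_eq_one t
      rw [ht, pow_two] at this
      exact congrArg Subtype.val this
    obtain ⟨b, hb, tb, -⟩ := partner (C := C) t1 (inv_pow_m hm t2) t.2.1
    obtain ⟨y, hy, e⟩ := C.Kreg hb C.h01
    obtain ⟨h3, h4, -⟩ := mem_JJ.1 (conj_JJ y (mem_JJ.2 ⟨t1, t2, _, tb⟩ : (t : G) ∈ C.JJ))
    have t3 : (t : G) • C.x0 = C.x0 := t.2.1
    have t4 : (t : G) • C.z0 = C.z0 := t.2.2
    have := inv_unique hm h1 h2 h3 h4 C.h01 ia ib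
      (by rw [mul_smul, mul_smul, inv_smul_eq_iff.2 (K_fix hy).symm, t3, K_fix hy])
      (by rw [← e, mul_smul, mul_smul, inv_smul_smul, tb])
    refine hA (y • C.z0) (by have := non_inv y (non0 (C := C)); rwa [K_fix hy] at this) ?_
    rw [this, mul_smul, mul_smul, inv_smul_smul, t4]
  obtain ⟨c1, c2⟩ := counts hm hi
  have c3 := cnt_total (C := C) i
  have e1 := (ee_le (C := C) C.x0 C.y0).trans (cardE (C := C) C.h01).le
  have e2 := (ee_le (C := C) C.x0 C.z0).trans (cardU (C := C) non0).le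
  obtain ⟨t, ht⟩ := k_dvd_l hS hm
  have hk := k_pos (C := C)
  have hlu := lu_eq (C := C)
  rw [ht, mul_assoc] at hlu
  have htu : t * C.u = C.m := Nat.eq_of_mul_eq_mul_left hk hlu
  rw [ha0, ht] at c2
  have c2' : cnt C.non i = 2 * (t * C.ee C.x0 C.z0) :=
    Nat.eq_of_mul_eq_mul_left hk (by rw [c2]; ring)
  rw [card_X (C := C), ha0, c1, c2', ha0, ht] at c3
  have e3 : t * C.ee C.x0 C.z0 ≤ C.m := htu ▸ Nat.mul_le_mul_left t e2
  have hmk := m_lt_k (C := C)
  have hte : Even t := by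
    rw [← htu, Nat.even_mul] at hm
    exact hm.resolve_right (Nat.not_even_iff_odd.2 hu)
  have hm2 := two_le_m (C := C)
  have ht2 : t = 2 := by
    obtain ⟨w, rfl⟩ := hte
    rcases w with _ | _ | w
    · simp at htu; omega
    · rfl
    · nlinarith
  subst ht2
  obtain ⟨r, hr⟩ := m_dvd (C := C)
  have hr1 : r = 1 := by
    rcases r with _ | _ | r
    · omega
    · rfl
    · have : C.k = 1 + C.m * (r + 1 + 1) := by omega
      nlinarith
  subst hr1
  obtain ⟨s, p1, p2⟩ := params (C := C)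
  rw [ht, mul_assoc] at p2
  have p3 : C.m * s = 2 * C.mu := Nat.eq_of_mul_eq_mul_left hk p2
  have hmu := mu_pos (C := C)
  have hs : s = 1 := by
    rcases s with _ | _ | s
    · omega
    · rfl
    · nlinarith
  subst hs
  have hl0 : C.lam = 0 := by omega
  have hk2 : C.k = 2 * C.mu + 1 := by omega
  obtain ⟨f, g, q1, q2⟩ := eigen_bot (C := C) 1 (-(C.mu + 1))
    (by have : (0 : ℝ) ≤ C.mu := Nat.cast_nonneg _; intro e; linarith) (by rw [hl0]; push_cast; ring)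
    (by rw [hk2]; push_cast; ring)
  have q3 : C.k + f = (C.mu + 1) * g := by
    have : (C.k : ℝ) + f = (C.mu + 1) * g := by linarith
    exact_mod_cast this
  have h12 : C.mu + 2 ∣ 12 := by
    have h1 : (C.mu + 2) * g = (C.mu + 2) * 8 - 12 := by
      have : (C.mu + 1) * g + g = (C.mu + 2) * g := by ring
      omega
    have h2 : C.mu + 2 ∣ (C.mu + 2) * 8 - 12 := h1 ▸ dvd_mul_right _ _
    exact (Nat.dvd_sub_iff_right (by omega) (dvd_mul_right _ _)).1 h2
  have := Nat.le_of_dvd (by norm_num) h12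
  obtain ⟨w, hw⟩ := hu
  have h10 : C.mu ≤ 10 := by omega
  generalize C.mu = μ at *
  interval_cases μ <;> omega

theorem caseB (hS : ¬ C.NS) (hm : Even C.m) {i : G} (hi : i ∈ C.JJ) (ia : i • C.x0 = C.x0)
    (ib : i • C.y0 = C.y0) {c : X} (hc : C.non C.x0 c) (ic : i • c = c) : C.k = 5 ∧ C.l = 10 := by
  classical
  obtain ⟨h1, h2, -⟩ := mem_JJ.1 hi
  have := Fintype.ofFinite (C.K C.x0)
  obtain ⟨s1, s0, hφ⟩ := caseB_sums hS hm hi C.h01 hc ia ib ic
  obtain ⟨c1, c2⟩ := counts hm hi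
  have c3 := cnt_total (C := C) i
  have e1 := (ee_le (C := C) C.x0 C.y0).trans (cardE (C := C) C.h01).le
  have e2 := (ee_le (C := C) C.x0 C.z0).trans (cardU (C := C) non0).le
  have hee : C.ee C.x0 c = C.ee C.x0 C.z0 := by
    obtain ⟨g, g1, g2⟩ := trN (non0 (C := C)) hc
    rw [← ee_smul g C.x0 C.z0, g1, g2]
  have hb := ee_bound hS hm h1 h2 hc ⟨ia, ic⟩
  rw [hee] at hb
  have hu : Even C.u := by
    have h3 : orderOf (⟨i, ia, ic⟩ : St G C.x0 c) = 2 :=
      orderOf_eq_prime (Subtype.ext (by rw [pow_two]; exact h2)) fun e => h1 (congrArg Subtype.val e)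
    have h4 := orderOf_dvd_natCard (⟨i, ia, ic⟩ : St G C.x0 c)
    rw [h3, cardU hc] at h4
    exact even_iff_two_dvd.2 h4
  obtain ⟨t, ht⟩ := k_dvd_l hS hm
  have hk := k_pos (C := C)
  have hlu := lu_eq (C := C)
  rw [ht, mul_assoc] at hlu
  have htu : t * C.u = C.m := Nat.eq_of_mul_eq_mul_left hk hlu
  have ha0 : C.a0 i = t + 2 := Nat.eq_of_mul_eq_mul_left hk (by rw [hφ, ht]; ring)
  have hte : Even t := by
    obtain ⟨w, hw⟩ := even_a0 hm hi
    exact ⟨w - 1, by omega⟩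
  have hm2 := two_le_m (C := C)
  have ht0 : 0 < t := Nat.pos_of_ne_zero fun e => by rw [e] at htu; omega
  have ht2 : 2 ≤ t := by obtain ⟨w, hw⟩ := hte; omega
  have hu0 := u_pos (C := C)
  rw [ha0, ht] at c2
  have c2' : cnt C.non i = (t + 2) * t * C.ee C.x0 C.z0 :=
    Nat.eq_of_mul_eq_mul_left hk (by rw [c2]; ring)
  rw [ha0] at c1 s0
  rw [card_X (C := C), ha0, c1, c2', ht] at c3
  obtain ⟨r, hr⟩ := m_dvd (C := C)
  have hkr : C.k = C.m * r + 1 := by omega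
  have hcnt : (t + 2) * C.ee C.x0 C.y0 + (t + 2) * t * C.ee C.x0 C.z0 = C.m * r * (t + 1) := by
    rw [hkr] at c3; linarith
  have hr2 : r ≤ 2 := r3_r_le t C.u C.m r _ _ ht2 (by omega) htu e1 e2 hcnt
  obtain ⟨s, p1, p2⟩ := params (C := C)
  rw [ht, mul_assoc, ← htu, mul_assoc] at p2
  have p3 : C.u * s = C.mu := Nat.eq_of_mul_eq_mul_left ht0 (Nat.eq_of_mul_eq_mul_left hk p2)
  have hmu := mu_pos (C := C)
  have hs0 : s ≠ 0 := by rintro rfl; omega
  have hsr : s ≤ r := Nat.le_of_mul_le_mul_left (show C.m * s ≤ C.m * r by omega) (by omega)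
  by_cases hrs : s = r
  · subst hrs
    have hl0 : C.lam = 0 := by omega
    have hk2 : C.k = t * C.mu + 1 := by rw [hkr, ← htu, ← p3]; ring
    have hmu2 : 2 ≤ C.mu := by
      obtain ⟨w, hw⟩ := hu
      have : C.u * 1 ≤ C.u * s := Nat.mul_le_mul_left _ (Nat.pos_of_ne_zero hs0)
      omega
    obtain ⟨θ, τ, q1, q2, q3⟩ := eigen_int (C := C) (by
      rw [hl0, ht]; exact r3_R_ne _ _ _ hk ht2 hmu2)
    have r1 : (θ : ℝ) ≠ τ := by exact_mod_cast q1.ne'
    have r2 : (θ : ℝ) + τ = C.lam - C.mu := by exact_mod_cast q2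
    have r3 : (θ : ℝ) * τ = C.mu - C.k := by exact_mod_cast q3
    obtain ⟨f, g, w1, w2⟩ := eigen_bot (C := C) θ τ r1 r2 r3
    obtain ⟨f0, g0, v1, v2⟩ := eigen_real (C := C) θ τ r1 r2 r3 (C.K C.x0)
    rw [← Nat.cast_sum, ← Nat.card_eq_fintype_card, cardK] at v1 v2
    rw [s0] at v1
    rw [s1, c1] at v2
    have hk' : (C.k : ℝ) ≠ 0 := by positivity
    push_cast at v1 v2
    have v1' : f0 + g0 = t + 1 := by
      have := mul_left_cancel₀ hk' v1
      have : (f0 : ℝ) + g0 = t + 1 := by linarith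
      exact_mod_cast this
    have v2' := mul_left_cancel₀ hk' v2
    have := r3_arith_a t C.u C.mu f0 g0 f g (C.ee C.x0 C.y0) (C.ee C.x0 C.z0) θ τ hte ht0 hu hu0 q1
      (by rw [q2, hl0]; simp) (by rw [q3, hk2]) v1' (by rw [← hk2]; exact_mod_cast v2')
      (by rw [hcnt, ← htu, ← p3]; ring) (by rw [← hk2, ← ht]; exact w1)
      (by rw [← hk2]; exact_mod_cast w2) (by
        rcases (by omega : s = 2 ∨ s = 1) with rfl | rfl
        · exact Or.inl ⟨by omega, e2⟩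
        · have hlt : C.ee C.x0 C.z0 < C.u := r3_e_lt t C.u C.m _ _ ht0 hu0 htu hcnt
          exact Or.inr ⟨by omega, (hb hlt).1, (hb hlt).2, hk2 ▸ k_ne (by omega)⟩)
    rw [ht, hk2, this.1, this.2]
    exact ⟨rfl, rfl⟩
  · exfalso
    obtain rfl : s = 1 := by omega
    obtain rfl : r = 2 := by omega
    have hl : C.lam = t * C.u := by omega
    have hmu' : C.mu = C.u := by omega
    obtain ⟨θ, τ, q1, q2, q3⟩ := eigen_int (C := C) (by
      rw [hl, hmu', ht]; exact r3_R_ne' _ _ _ hk ht2)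
    exact r3_arith_b t C.u θ τ ht2 hu hu0 q1 (by rw [q2, hl, hmu'])
      (by rw [q3, hmu', show C.k = 2 * (t * C.u) + 1 by omega])

theorem final : (C.k = 3 ∧ C.m = 2 ∧ C.l = 6) ∨ (C.k = 5 ∧ C.l = 10) ∨ (C.k = 9 ∧ C.l = 6) := by
  by_cases hS : C.NS
  · exact Or.inr (Or.inr (NS_card hS))
  have hm : Even C.m := (even_km (C := C)).resolve_left (even_false hS)
  obtain ⟨i, h1, h2, ia, ib⟩ := ex_inv hm C.h01
  have hi : i ∈ C.JJ := mem_JJ.2 ⟨h1, h2, _, ia⟩
  by_cases hA : ∀ c, C.non C.x0 c → i • c ≠ c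
  · exact Or.inl (caseA hS hm hi ia ib hA)
  · push Not at hA
    obtain ⟨c, hc, ic⟩ := hA
    exact Or.inr (Or.inl (caseB hS hm hi ia ib hc ic))

end Ctx

end Cfsg.Lib.R3F
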