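import Cfsg.Agent.Lib.R3F.Spec
import Cfsg.Agent.Lib.R3F.Arith

/-! The case of a complement of even order with semiregular kernel: counting involutions. -/

set_option autoImplicit false

namespace Cfsg.Lib.R3F

open MulAction Subgroup Finset

namespace Ctx

variable {G X : Type*} [Group G] [Finite G] [Fintype X] [MulAction G X] {C : Ctx G X}

theorem K_semi (hS : ¬ C.NS) (hm : Even C.m) {y : G} {x q : X} (hy : y ∈ C.K x) (h1 : y ≠ 1)
    (hq : y • q = q) : x = q := Z_fix hS ⟨hy, fun _ ha => K_comm hm ha hy⟩ h1 hq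

variable (C) in
open Classical in
/-- the involutions with a fixed point -/
noncomputable def JJ (_C : Ctx G X) : Finset G :=
  (Fintype.ofFinite G).elems.filter fun j => j ≠ 1 ∧ j * j = 1 ∧ ∃ p : X, j • p = p

theorem mem_JJ {j : G} : j ∈ C.JJ ↔ j ≠ 1 ∧ j * j = 1 ∧ ∃ p : X, j • p = p := by
  simp [JJ, Fintype.complete]

theorem conj_JJ (g : G) {j : G} (h : j ∈ C.JJ) : g * j * g⁻¹ ∈ C.JJ := by
  obtain ⟨h1, h2, p, hp⟩ := mem_JJ.1 h
  refine mem_JJ.2 ⟨by simpa using h1, ?_, g • p, by rw [mul_smul, mul_smul, inv_smul_smul, hp]⟩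
  calc g * j * g⁻¹ * (g * j * g⁻¹) = g * (j * j) * g⁻¹ := by group
    _ = 1 := by rw [h2]; group

theorem JJ_conj (hm : Even C.m) {i j : G} (hi : i ∈ C.JJ) (hj : j ∈ C.JJ) :
    ∃ g : G, j = g * i * g⁻¹ := by
  obtain ⟨h1, h2, p, hp⟩ := mem_JJ.1 hi
  obtain ⟨h1', h2', p', hp'⟩ := mem_JJ.1 hj
  obtain ⟨q, hq, hq1, -⟩ := partner (C := C) h1 (inv_pow_m hm h2) hp
  obtain ⟨q', hq', hq1', -⟩ := partner (C := C) h1' (inv_pow_m hm h2') hp'
  obtain ⟨g, rfl, rfl⟩ := C.trAdj hq hq'
  obtain ⟨h3, h4, -⟩ := mem_JJ.1 (conj_JJ g hi)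
  exact ⟨g, inv_unique hm h1' h2' h3 h4 hq' hp' hq1' (by rw [mul_smul, mul_smul, inv_smul_smul, hp])
    (by rw [mul_smul, mul_smul, inv_smul_smul, hq1])⟩

open Classical in
/-- number of points in relation `R` with their image -/
noncomputable def cnt (R : X → X → Prop) (g : G) : ℕ := (univ.filter fun x : X => R x (g • x)).card

theorem cnt_conj (R : X → X → Prop) (hR : ∀ (g : G) {x y}, R x y → R (g • x) (g • y)) (h g : G) :
    cnt R (h * g * h⁻¹) = cnt R g := by
  classical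
  refine (card_bij (fun x _ => h • x) (fun x hx => ?_) (fun a _ b _ e => smul_left_cancel h e)
    fun x hx => ⟨h⁻¹ • x, ?_, by simp⟩).symm
  · simp only [mem_filter, mem_univ, true_and, mul_smul, inv_smul_smul] at hx ⊢
    exact hR h hx
  · simp only [mem_filter, mem_univ, true_and, mul_smul] at hx ⊢
    simpa using hR h⁻¹ hx

variable (C) in
open Classical in
/-- number of involutions with a fixed point moving `x` to `y` -/
noncomputable def ee (x y : X) : ℕ := (C.JJ.filter fun j => j • x = y).card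

theorem ee_smul (g : G) (x y : X) : C.ee (g • x) (g • y) = C.ee x y := by
  classical
  refine (card_bij (fun j _ => g * j * g⁻¹) (fun j hj => ?_) (fun a _ b _ e => by simpa using e)
    fun j hj => ⟨g⁻¹ * j * g⁻¹⁻¹, ?_, by group⟩).symm
  · rw [mem_filter] at hj ⊢
    exact ⟨conj_JJ g hj.1, by rw [mul_smul, mul_smul, inv_smul_smul, hj.2]⟩
  · rw [mem_filter] at hj ⊢
    exact ⟨conj_JJ _ hj.1, by rw [mul_smul, mul_smul, inv_inv, hj.2, inv_smul_smul]⟩

theorem ee_le (x y : X) : C.ee x y ≤ Nat.card (St G x y) := by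
  classical
  exact r3_fiber_le _ _ _ fun z hz => ⟨(mem_JJ.1 (mem_filter.1 hz).1).2.1, (mem_filter.1 hz).2⟩

theorem count (hm : Even C.m) (R : X → X → Prop) [∀ x y, Decidable (R x y)]
    (hR : ∀ (g : G) {x y}, R x y → R (g • x) (g • y)) (N e : ℕ)
    (hN : ∀ x, (univ.filter (R x)).card = N) (he : ∀ x y, R x y → C.ee x y = e) {i : G}
    (hi : i ∈ C.JJ) : C.JJ.card * cnt R i = Fintype.card X * (N * e) := by
  classical
  refine card_mul_eq_card_mul (s := C.JJ) (t := univ) (fun j x => R x (j • x)) (fun j hj => ?_)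
    fun x _ => ?_
  · obtain ⟨g, rfl⟩ := JJ_conj hm hi hj
    rw [← cnt_conj R hR g i, cnt, bipartiteAbove]
    congr
  · rw [bipartiteBelow, card_eq_sum_card_fiberwise (f := fun j : G => j • x)
      (t := univ.filter (R x)) (fun j hj => by simpa using (mem_filter.1 (mem_coe.1 hj)).2),
      ← hN x, ← smul_eq_mul, ← sum_const]
    refine sum_congr rfl fun y hy => ?_
    rw [← he x y (mem_filter.1 hy).2, ee]
    congr 1
    ext j
    simp only [mem_filter, and_assoc, and_congr_right_iff, and_iff_right_iff_imp]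
    rintro - rfl
    exact (mem_filter.1 hy).2

theorem ee_self (hm : Even C.m) (x : X) : C.ee x x = C.k := by
  classical
  have := card_mul_eq_card_mul (s := C.JJ.filter fun j => j • x = x) (t := C.nb x)
    (fun j y => j • y = y) (m := 1) (n := 1) (fun j hj => by
      obtain ⟨hj, hx⟩ := mem_filter.1 hj
      obtain ⟨h1, h2, -⟩ := mem_JJ.1 hj
      obtain ⟨y, hy, e, hu⟩ := partner (C := C) h1 (inv_pow_m hm h2) hx
      rw [card_eq_one]
      exact ⟨y, by
        ext z
        simp only [mem_bipartiteAbove, mem_nb, mem_singleton]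
        exact ⟨fun h => hu z h.1 h.2, fun h => h ▸ ⟨hy, e⟩⟩⟩)
    (fun y hy => by
      obtain ⟨j, h1, h2, h3, h4⟩ := ex_inv hm (mem_nb.1 hy)
      rw [card_eq_one]
      exact ⟨j, by
        ext j'
        simp only [mem_bipartiteBelow, mem_filter, mem_singleton, mem_JJ]
        exact ⟨fun h => inv_unique hm h.1.1.1 h.1.1.2.1 h1 h2 (mem_nb.1 hy) h.1.2 h.2 h3 h4,
          fun h => h ▸ ⟨⟨⟨h1, h2, x, h3⟩, h3⟩, h4⟩⟩⟩)
  rw [mul_one, mul_one, card_nb] at this
  rw [← this, ee]

theorem cnt_total (g : G) : C.a0 g + C.a1 g + cnt C.non g = Fintype.card X := by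
  classical
  simp only [a0, a1, cnt, card_filter, ← sum_add_distrib]
  rw [← card_univ, card_eq_sum_ones]
  refine sum_congr rfl fun x _ => ?_
  rcases tri (C := C) x (g • x) with h | h | h
  · simp [← h, C.irrefl, non]
  · simp [h, (adj_ne h).symm, non]
  · simp [h, h.1.symm, h.2]

theorem counts (hm : Even C.m) {i : G} (hi : i ∈ C.JJ) :
    C.a1 i = C.a0 i * C.ee C.x0 C.y0 ∧ C.k * cnt C.non i = C.a0 i * (C.l * C.ee C.x0 C.z0) := by
  classical
  have h0 := count hm (fun x y => y = x) (fun g _ _ h => congrArg _ h) 1 C.k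
    (fun x => Finset.card_eq_one.2 ⟨x, by ext y; simp⟩) (fun x y h => h ▸ ee_self hm _) hi
  have h1 := count hm C.adj C.inv C.k (C.ee C.x0 C.y0) (fun x => by rw [← card_nb x, nb])
    (fun x y h => by obtain ⟨g, rfl, rfl⟩ := C.trAdj C.h01 h; exact ee_smul _ _ _) hi
  have h2 := count hm C.non (fun g => non_inv g) C.l (C.ee C.x0 C.z0)
    (fun x => by rw [← card_nn x, nn])
    (fun x y h => by obtain ⟨g, rfl, rfl⟩ := trN non0 h; exact ee_smul _ _ _) hi
  have e0 : cnt (fun x y : X => y = x) i = C.a0 i := rfl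
  have e1 : cnt C.adj i = C.a1 i := rfl
  rw [e0, one_mul] at h0
  rw [e1] at h1
  have hn : 0 < Fintype.card X := by rw [card_X (C := C)]; omega
  have hk := k_pos (C := C)
  constructor
  · apply Nat.eq_of_mul_eq_mul_left (Nat.mul_pos hn hk)
    calc Fintype.card X * C.k * C.a1 i = C.a0 i * (C.JJ.card * C.a1 i) := by rw [← h0]; ring
      _ = _ := by rw [h1]; ring
  · apply Nat.eq_of_mul_eq_mul_left hn
    calc Fintype.card X * (C.k * cnt C.non i) = C.a0 i * (C.JJ.card * cnt C.non i) := by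
          rw [← mul_assoc, ← h0]; ring
      _ = _ := by rw [h2]; ring

theorem k_dvd_l (hS : ¬ C.NS) (hm : Even C.m) : C.k ∣ C.l := by
  rw [← cardK C.x0, ← card_nn C.x0]
  exact r3_dvd_of_semireg _ _ (fun g hg z hz => mem_nn.2 (by
      have := non_inv g (mem_nn.1 hz); rwa [K_fix hg] at this))
    fun g hg z hz e => by_contra fun h1 => (mem_nn.1 hz).1 (K_semi hS hm hg h1 e)

theorem even_a0 (hm : Even C.m) {i : G} (hi : i ∈ C.JJ) : Even (C.a0 i) := by
  classical
  obtain ⟨h1, h2, -⟩ := mem_JJ.1 hi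
  have hp := fun (x : X) (hx : i • x = x) => partner (C := C) h1 (inv_pow_m hm h2) hx
  choose π h3 h4 h5 using hp
  have := sum_involution (s := univ.filter fun x : X => i • x = x) (f := fun _ => (1 : ZMod 2))
    (fun x hx => π x (mem_filter.1 hx).2) (fun _ _ => rfl) (fun x hx _ => (adj_ne (h3 x _)).symm)
    (fun x hx => mem_filter.2 ⟨mem_univ _, h4 x _⟩)
    (fun x hx => (h5 _ _ x (C.symm (h3 x _)) (mem_filter.1 hx).2).symm)
  rw [sum_const, nsmul_eq_mul, mul_one, ZMod.natCast_eq_zero_iff_even] at this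
  rw [a0]; convert this

theorem sum_cnt (R : X → X → Prop) {a : X} {i : G} (hi : ∀ x : X, ∃ y ∈ C.K a, i • x = y • x)
    [Fintype (C.K a)] : ∑ y : C.K a, cnt R (y * i : G) = ∑ y : C.K a, cnt R (y : G) := by
  classical
  simp only [cnt, card_filter]
  rw [sum_comm, sum_comm (s := (univ : Finset (C.K a)))]
  refine sum_congr rfl fun x _ => ?_
  obtain ⟨z, hz, e⟩ := hi x
  exact Fintype.sum_equiv (Equiv.mulRight ⟨z, hz⟩) _ _ fun y => by simp [mul_smul, e]

theorem mul_mem_JJ (hm : Even C.m) {i y : G} {a : X} (hi : i ∈ C.JJ) (ha : i • a = a)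
    (hy : y ∈ C.K a) : y * i ∈ C.JJ := by
  obtain ⟨h1, h2, -⟩ := mem_JJ.1 hi
  refine mem_JJ.2 ⟨fun e => h1 (eq_one_of_pow (C := C) (pow_k (x := a) ?_) (inv_pow_m hm h2)), ?_,
    a, by rw [mul_smul, ha, K_fix hy]⟩
  · rw [eq_inv_of_mul_eq_one_right e]; exact (C.K a).inv_mem hy
  · rw [mul_assoc, ← mul_assoc i, inverts hm h1 h2 ha y hy, mul_inv_cancel]

theorem caseB_sums (hS : ¬ C.NS) (hm : Even C.m) {i : G} {a b c : X} (hi : i ∈ C.JJ)
    (hb : C.adj a b) (hc : C.non a c) (ia : i • a = a) (ib : i • b = b) (ic : i • c = c)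
    [Fintype (C.K a)] : ∑ y : C.K a, C.a1 y = C.k * C.a1 i ∧ ∑ y : C.K a, C.a0 y = C.k * C.a0 i ∧
      C.k * C.a0 i = 2 * C.k + C.l := by
  classical
  obtain ⟨h1, h2, -⟩ := mem_JJ.1 hi
  have hx : ∀ x, ∃ y ∈ C.K a, ∃ p, i • p = p ∧ x = y • p := fun x => by
    rcases tri (C := C) a x with h | h | h
    · exact ⟨1, (C.K a).one_mem, a, ia, by simp [h]⟩
    · obtain ⟨y, hy, e⟩ := C.Kreg hb h; exact ⟨y, hy, b, ib, e.symm⟩
    · obtain ⟨g, hg, rfl⟩ := trN hc h
      obtain ⟨y, hy, e, ea, eb, rfl⟩ := decomp hb hg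
      refine ⟨y, hy, e • c, ?_, mul_smul _ _ _⟩
      obtain ⟨h3, h4, -⟩ := mem_JJ.1 (conj_JJ e hi)
      rw [inv_unique hm h1 h2 h3 h4 hb ia ib
        (by rw [mul_smul, mul_smul, inv_smul_eq_iff.2 ea.symm, ia, ea])
        (by rw [mul_smul, mul_smul, inv_smul_eq_iff.2 eb.symm, ib, eb]), mul_smul, mul_smul,
        inv_smul_smul, ic]
  have hi' : ∀ x, ∃ y ∈ C.K a, i • x = y • x := fun x => by
    obtain ⟨y, hy, p, hp, rfl⟩ := hx x
    refine ⟨y⁻¹ * y⁻¹, mul_mem (inv_mem hy) (inv_mem hy), ?_⟩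
    rw [mul_smul, inv_smul_smul, ← inverts hm h1 h2 ia y hy, mul_smul, mul_smul, hp]
  have hcard : Fintype.card (C.K a) = C.k := by rw [← Nat.card_eq_fintype_card, cardK]
  have key : ∀ R : X → X → Prop, (∀ (g : G) {x y}, R x y → R (g • x) (g • y)) →
      ∑ y : C.K a, cnt R (y : G) = C.k * cnt R i := fun R hR => by
    rw [← sum_cnt R hi', ← hcard, ← card_univ, ← smul_eq_mul, ← sum_const]
    refine sum_congr rfl fun y _ => ?_
    obtain ⟨g, e⟩ := JJ_conj hm hi (mul_mem_JJ hm hi ia y.2)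
    rw [e, cnt_conj R hR]
  have e0 := key (fun x y => y = x) fun g _ _ h => congrArg _ h
  refine ⟨key C.adj C.inv, e0, ?_⟩
  have e1 : ∑ y : C.K a, C.a0 y = C.k * C.a0 i := e0
  rw [← e1, ← add_sum_erase _ _ (mem_univ 1), sum_congr rfl (g := fun _ => 1) fun y hy => ?_]
  · rw [OneMemClass.coe_one, a0_one, card_X (C := C), sum_const, card_erase_of_mem (mem_univ _),
      card_univ, hcard, smul_eq_mul]
    have := k_pos (C := C)
    omega
  · rw [a0, Finset.card_eq_one]
    refine ⟨a, ?_⟩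
    ext x
    simp only [mem_filter, mem_univ, true_and, mem_singleton]
    exact ⟨fun h => (K_semi hS hm y.2 (fun e => (mem_erase.1 hy).1 (Subtype.ext e)) h).symm,
      fun h => by rw [h]; exact K_fix y.2⟩

theorem U_inv_unique (hS : ¬ C.NS) (hm : Even C.m) {i w : G} {a c : X} (hi1 : i ≠ 1)
    (hi : i * i = 1) (hc : C.non a c) (hiU : i ∈ St G a c) (hw : w ∈ St G a c) (hw2 : w * w = 1) :
    w = 1 ∨ w = i := by
  refine (eq_or_ne w 1).imp_right fun h1 => ?_
  obtain ⟨y, hy, y1⟩ := exK (C := C) a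
  have e1 := inverts hm hi1 hi hiU.1 y hy
  have e2 := inverts hm h1 hw2 hw.1 y hy
  have h3 : i * w ∈ C.K a := memK_of_comm (mul_mem hiU hw).1 hy y1 (by
    calc i * w * y = i * (w * y * w) * w := by
          rw [show i * (w * y * w) * w = i * w * y * (w * w) by group, hw2, mul_one]
      _ = i * (i * y * i) * w := by rw [e1, e2]
      _ = y * (i * w) := by
          rw [show i * (i * y * i) * w = (i * i) * y * (i * w) by group, hi, one_mul])
  have h4 : i * w = 1 := by_contra fun h => hc.1 (K_semi hS hm h3 h (mul_mem hiU hw).2)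
  calc w = i * (i * w) := by rw [← mul_assoc, hi, one_mul]
    _ = i := by rw [h4, mul_one]

theorem ee_bound (hS : ¬ C.NS) (hm : Even C.m) {i : G} {a c : X} (hi1 : i ≠ 1) (hi : i * i = 1)
    (hc : C.non a c) (hiU : i ∈ St G a c) (hlt : C.ee a c < C.u) :
    4 * C.ee a c ≤ 3 * C.u ∧ (C.u = 4 → C.ee a c ≠ 3) := by
  classical
  have key : ¬ (3 * C.u < 4 * C.ee a c ∨
      ((∀ x ∈ St G a c, ∀ y ∈ St G a c, x * y = y * x) ∧ C.u < 2 * C.ee a c)) := by
    intro h
    have hu := u_pos (C := C)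
    set S := C.JJ.filter fun j => j • a = c with hSd
    have hS' : S.card = C.ee a c := by rw [hSd, ee]
    have hmem : ∀ j ∈ S, j * j = 1 ∧ j • a = c ∧ j • c = a := fun j hj => by
      obtain ⟨h1, h2⟩ := mem_filter.1 hj
      have h3 := (mem_JJ.1 h1).2.1
      exact ⟨h3, h2, by rw [← h2, ← mul_smul, h3, one_smul]⟩
    have hall : ∀ j ∈ S, ∀ w ∈ St G a c, j * w * j = w⁻¹ := fun j hj =>
      r3_three_quarters _ j (hmem j hj).1 (S.image fun j' => j * j') (fun w hw => by
        obtain ⟨j', hj', rfl⟩ := mem_image.1 hw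
        refine ⟨⟨?_, ?_⟩, ?_⟩
        · change _ • _ = _; rw [mul_smul, (hmem _ hj').2.1, (hmem _ hj).2.2]
        · change _ • _ = _; rw [mul_smul, (hmem _ hj').2.2, (hmem _ hj).2.1]
        · rw [← mul_assoc, (hmem _ hj).1, one_mul, mul_inv_rev,
            inv_eq_of_mul_eq_one_right (hmem _ hj).1, inv_eq_of_mul_eq_one_right (hmem _ hj').1])
        (by rwa [card_image_of_injective _ (mul_right_injective _), cardU hc, hS'])
    obtain ⟨j0, hj0⟩ : S.Nonempty := card_pos.1 (by omega)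
    have hcomm : ∀ x y : St G a c, (x : G) * y = y * x := fun x y =>
      r3_comm_of_inv _ (hmem _ hj0).1 (hall _ hj0) x.2 y.2
    let φ : St G a c →* G :=
      { toFun := fun w => w * w
        map_one' := by simp
        map_mul' := fun x y => by
          rw [Subgroup.coe_mul, mul_assoc, ← mul_assoc (y : G), ← hcomm x y]; group }
    have h1 : Nat.card φ.range ∣ C.ee a c := by
      rw [← hS']
      refine r3_dvd_of_semireg _ _ (fun g hg j hj => ?_) fun g _ j _ e => by simpa using e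
      obtain ⟨w, rfl⟩ := hg
      have e : φ w • j = w * j * (w : G)⁻¹ := by
        change (w : G) * w * j = _
        rw [← hall j hj w w.2, mul_assoc (w : G) j, ← mul_assoc j, ← mul_assoc j, (hmem j hj).1,
          one_mul, mul_assoc]
      rw [e]
      exact mem_filter.2 ⟨conj_JJ _ (mem_filter.1 hj).1, by
        rw [mul_smul, mul_smul, inv_smul_eq_iff.2 w.2.1.symm, (hmem j hj).2.1]; exact w.2.2⟩
    have h2 : Nat.card φ.ker ≤ 2 := by
      have : Nat.card φ.ker ≤ Nat.card ({1, i} : Finset G) :=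
        Nat.card_le_card_of_injective (fun w => ⟨w.1.1, by
          simpa using U_inv_unique hS hm hi1 hi hc hiU w.1.2 w.2⟩)
          fun x y e => Subtype.ext (Subtype.ext (congrArg (fun z : ({1, i} : Finset G) => z.1) e))
      rw [Nat.card_eq_finsetCard] at this
      exact this.trans card_le_two
    have h3 : Nat.card φ.ker * Nat.card φ.range = C.u := by
      rw [← index_ker, card_mul_index, cardU hc]
    obtain ⟨d, hd⟩ := h1
    have h4 : 0 < Nat.card φ.ker := Nat.card_pos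
    generalize Nat.card φ.range = v at *
    have h5 : C.u < 2 * C.ee a c := by omega
    rcases d with _ | _ | d
    · omega
    · interval_cases Nat.card φ.ker <;> omega
    · interval_cases Nat.card φ.ker <;> nlinarith
  push Not at key
  refine ⟨key.1, fun h4 h3 => ?_⟩
  have : Fact (Nat.Prime 2) := ⟨Nat.prime_two⟩
  have hcomm := IsPGroup.isMulCommutative_of_card_eq_prime_sq (p := 2) (G := St G a c)
    (by rw [cardU hc, h4]; rfl)
  have := key.2 fun x hx y hy => congrArg Subtype.val (hcomm.is_comm.comm (⟨x, hx⟩ : St G a c) ⟨y, hy⟩)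
  omega

theorem k_ne (h : C.k = C.m + 1) : C.k ≠ 21 := by
  intro h21
  have : Fact (Nat.Prime 3) := ⟨by norm_num⟩
  have : Fact (Nat.Prime 7) := ⟨by norm_num⟩
  obtain ⟨y, hy⟩ := exists_prime_orderOf_dvd_card' (G := C.K C.x0) 3 (by rw [cardK, h21]; norm_num)
  obtain ⟨y', hy'⟩ := exists_prime_orderOf_dvd_card' (G := C.K C.x0) 7
    (by rw [cardK, h21]; norm_num)
  have y1 : y ≠ 1 := by rintro rfl; simp at hy
  have y1' : y' ≠ 1 := by rintro rfl; simp at hy'
  let φ : St G C.x0 C.y0 → {w : C.K C.x0 // w ≠ 1} := fun e =>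
    ⟨⟨e.1 * y * e.1⁻¹, conjK' e.2.1 y.2⟩, fun h => y1 (Subtype.ext (by
      simpa using congrArg Subtype.val h))⟩
  have hφ : Function.Injective φ := fun e e' h => by
    have h' : e.1 * y * e.1⁻¹ = e'.1 * y * e'.1⁻¹ := congrArg (fun z => z.1.1) h
    have h3 : (e'⁻¹ * e).1 ∈ C.K C.x0 := memK_of_comm (e'⁻¹ * e).2.1 y.2
      (fun h => y1 (Subtype.ext h)) (by
      change e'.1⁻¹ * e.1 * y = y * (e'.1⁻¹ * e.1)
      calc e'.1⁻¹ * e.1 * y = e'.1⁻¹ * (e.1 * y * e.1⁻¹) * e.1 := by group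
        _ = _ := by rw [h']; group)
    have h4 : e'⁻¹ * e = 1 := Subtype.ext (K_eq_one h3 C.h01 (e'⁻¹ * e).2.2)
    exact (inv_mul_eq_one.1 h4).symm
  have hb := hφ.bijective_of_nat_card_le (by
    classical
    have := Fintype.ofFinite (C.K C.x0)
    rw [cardE C.h01, Nat.card_eq_fintype_card, Fintype.card_subtype_compl,
      Fintype.card_subtype_eq, ← Nat.card_eq_fintype_card, cardK]
    omega)
  obtain ⟨e, he⟩ := hb.2 ⟨y', y1'⟩
  have he' : e.1 * y * e.1⁻¹ = y' := congrArg (fun z => z.1.1) he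
  have h1 : (y : G) ^ 3 = 1 := by
    have := pow_orderOf_eq_one y; rw [hy] at this; exact congrArg Subtype.val this
  have h2 : y' ^ 3 = 1 := Subtype.ext (by
    rw [Subgroup.coe_pow, ← he', conj_pow, h1]; simp)
  have := orderOf_dvd_of_pow_eq_one h2
  rw [hy'] at this
  omega

end Ctx

end Cfsg.Lib.R3F
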