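import Mathlib
import Cfsg.Agent.S0042

/-! Rank three groups whose point stabilizer is a Frobenius group on one suborbit: the setting. -/

set_option autoImplicit false

namespace Cfsg.Lib.R3F

open MulAction Subgroup Finset

section Gen

variable {G X : Type*} [Group G] [Finite G] [MulAction G X]

/-- orbit-stabilizer for a subgroup and a finset on which it is transitive -/
theorem r3_card_of_trans (S : Subgroup G) (T : Finset X) {y : X}
    (hinv : ∀ g ∈ S, g • y ∈ T) (htr : ∀ z ∈ T, ∃ g ∈ S, g • y = z) :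
    Nat.card S = T.card * Nat.card ↥(S ⊓ stabilizer G y) := by
  have h1 := (MulAction.orbitProdStabilizerEquivGroup S y)
  have h2 : Nat.card S = Nat.card (orbit S y) * Nat.card (stabilizer S y) := by
    rw [← Nat.card_prod]; exact (Nat.card_congr h1).symm
  have h3 : orbit S y = (T : Set X) := by
    ext z
    constructor
    · rintro ⟨g, rfl⟩; exact hinv g g.2
    · intro hz; obtain ⟨g, hg, rfl⟩ := htr z hz; exact ⟨⟨g, hg⟩, rfl⟩
  have h4 : Nat.card (stabilizer S y) = Nat.card ↥(S ⊓ stabilizer G y) := by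
    refine Nat.card_congr ⟨fun g => ⟨g.1.1, g.1.2, g.2⟩, fun g => ⟨⟨g.1, g.2.1⟩, g.2.2⟩,
      fun _ => rfl, fun _ => rfl⟩
  rw [h2, h3, h4]
  simp

/-- a subgroup acting semiregularly on an invariant finset -/
theorem r3_dvd_of_semireg (S : Subgroup G) (T : Finset X)
    (hinv : ∀ g ∈ S, ∀ z ∈ T, g • z ∈ T) (hsr : ∀ g ∈ S, ∀ z ∈ T, g • z = z → g = 1) :
    Nat.card S ∣ T.card := by
  classical
  induction T using Finset.strongInduction with
  | H T ih =>
    rcases T.eq_empty_or_nonempty with rfl | ⟨y, hy⟩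
    · simp
    · set O := T.filter (fun z => ∃ g ∈ S, g • y = z) with hO
      have hOc : Nat.card S = O.card := by
        have := r3_card_of_trans S O (y := y)
          (fun g hg => mem_filter.2 ⟨hinv g hg y hy, g, hg, rfl⟩) (fun z hz => (mem_filter.1 hz).2)
        have hb : S ⊓ stabilizer G y = ⊥ := by
          rw [eq_bot_iff]; intro g hg; exact hsr g hg.1 y hy hg.2
        rw [hb] at this; simpa using this
      have hsub : O ⊆ T := filter_subset _ _
      have hyO : y ∈ O := mem_filter.2 ⟨hy, 1, S.one_mem, one_smul _ _⟩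
      have hlt : T \ O ⊂ T := sdiff_ssubset hsub ⟨y, hyO⟩
      have := ih _ hlt (fun g hg z hz => by
        rw [mem_sdiff] at hz ⊢
        refine ⟨hinv g hg z hz.1, fun h => hz.2 ?_⟩
        obtain ⟨-, g', hg', h'⟩ := mem_filter.1 h
        exact mem_filter.2 ⟨hz.1, g⁻¹ * g', S.mul_mem (S.inv_mem hg) hg', by
          rw [mul_smul, h', inv_smul_smul]⟩) (fun g hg z hz => hsr g hg z (mem_sdiff.1 hz).1)
      rw [← card_sdiff_add_card_eq_card hsub, ← hOc]
      exact dvd_add this dvd_rfl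

theorem r3_card_conj (S T : Subgroup G) (h : G) (hST : ∀ g, g ∈ S ↔ h * g * h⁻¹ ∈ T) :
    Nat.card S = Nat.card T := by
  refine Nat.card_congr ⟨fun g => ⟨h * g * h⁻¹, (hST g).1 g.2⟩,
    fun g => ⟨h⁻¹ * g * h, (hST _).2 (by simp [mul_assoc])⟩, fun g => ?_, fun g => ?_⟩
  · ext; simp [mul_assoc]
  · ext; simp [mul_assoc]

end Gen

/-- The data of a rank three group with a Frobenius point stabilizer. -/
structure Ctx (G X : Type*) [Group G] [MulAction G X] where
  adj : X → X → Prop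
  K : X → Subgroup G
  x0 : X
  y0 : X
  z0 : X
  irrefl : ∀ x, ¬ adj x x
  symm : ∀ {x y}, adj x y → adj y x
  inv : ∀ (g : G) {x y}, adj x y → adj (g • x) (g • y)
  trAdj : ∀ {x y x' y'}, adj x y → adj x' y' → ∃ g : G, g • x = x' ∧ g • y = y'
  trNon : ∀ {x y x' y'}, x ≠ y → ¬ adj x y → x' ≠ y' → ¬ adj x' y' →
    ∃ g : G, g • x = x' ∧ g • y = y'
  trans : ∀ x y : X, ∃ g : G, g • x = y
  h01 : adj x0 y0
  h12 : adj y0 z0
  h02 : x0 ≠ z0
  h02' : ¬ adj x0 z0
  exP2 : ∃ x y z, x ≠ y ∧ ¬ adj x y ∧ y ≠ z ∧ ¬ adj y z ∧ adj x z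
  frob : ∀ {g : G} {x y z}, adj x y → adj x z → y ≠ z → g • x = x → g • y = y → g • z = z → g = 1
  memK : ∀ {g : G} {x}, g ∈ K x ↔ g • x = x ∧ (g = 1 ∨ ∀ y, adj x y → g • y ≠ y)
  Kreg : ∀ {x y z}, adj x y → adj x z → ∃ g ∈ K x, g • y = z
  nil : ∀ x, Group.IsNilpotent (K x)
  exFix : ∃ g : G, g ≠ 1 ∧ g • x0 = x0 ∧ g • y0 = y0
  even : Even (Nat.card G)

/-- two-point stabilizer -/
abbrev St (G : Type*) {X : Type*} [Group G] [MulAction G X] (x y : X) : Subgroup G :=
  stabilizer G x ⊓ stabilizer G y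

theorem mem_St {G X : Type*} [Group G] [MulAction G X] {x y : X} {g : G} :
    g ∈ St G x y ↔ g • x = x ∧ g • y = y := Iff.rfl

namespace Ctx

variable {G X : Type*} [Group G] [Finite G] [Fintype X] [MulAction G X] (C : Ctx G X)

/-- distinct and non-adjacent -/
def non (x y : X) : Prop := x ≠ y ∧ ¬ C.adj x y

open Classical in
/-- the neighbours -/
noncomputable def nb (x : X) : Finset X := univ.filter (C.adj x)

open Classical in
/-- the non-neighbours -/
noncomputable def nn (x : X) : Finset X := univ.filter (C.non x)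

noncomputable def k : ℕ := Nat.card (C.K C.x0)
noncomputable def m : ℕ := Nat.card (St G C.x0 C.y0)
noncomputable def u : ℕ := Nat.card (St G C.x0 C.z0)
noncomputable def l : ℕ := (C.nn C.x0).card

variable {C}

@[simp] theorem mem_nb {x y : X} : y ∈ C.nb x ↔ C.adj x y := by simp [nb]
@[simp] theorem mem_nn {x y : X} : y ∈ C.nn x ↔ C.non x y := by simp [nn]

theorem adj_ne {x y : X} (h : C.adj x y) : x ≠ y := fun e => C.irrefl x (e ▸ h)

theorem inv_iff (g : G) {x y : X} : C.adj (g • x) (g • y) ↔ C.adj x y :=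
  ⟨fun h => by simpa using C.inv g⁻¹ h, C.inv g⟩

theorem non_symm {x y : X} (h : C.non x y) : C.non y x := ⟨h.1.symm, fun e => h.2 (C.symm e)⟩

theorem non_inv (g : G) {x y : X} (h : C.non x y) : C.non (g • x) (g • y) :=
  ⟨fun e => h.1 (smul_left_cancel g e), fun e => h.2 ((inv_iff g).1 e)⟩

theorem non_inv_iff (g : G) {x y : X} : C.non (g • x) (g • y) ↔ C.non x y :=
  ⟨fun h => by simpa using non_inv g⁻¹ h, non_inv g⟩

theorem trN {x y x' y' : X} (h : C.non x y) (h' : C.non x' y') :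
    ∃ g : G, g • x = x' ∧ g • y = y' := C.trNon h.1 h.2 h'.1 h'.2

theorem tri (x y : X) : x = y ∨ C.adj x y ∨ C.non x y := by
  by_cases h : x = y
  · exact Or.inl h
  · by_cases h' : C.adj x y
    · exact Or.inr (Or.inl h')
    · exact Or.inr (Or.inr ⟨h, h'⟩)

theorem non0 : C.non C.x0 C.z0 := ⟨C.h02, C.h02'⟩

theorem exAdj (x : X) : ∃ y, C.adj x y := by
  obtain ⟨g, rfl⟩ := C.trans C.x0 x
  exact ⟨_, C.inv g C.h01⟩

theorem exNon (x : X) : ∃ y, C.non x y := by
  obtain ⟨g, rfl⟩ := C.trans C.x0 x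
  exact ⟨_, non_inv g non0⟩

/-- a common neighbour of non-adjacent points -/
theorem exCommon {x z : X} (h : C.non x z) : ∃ y, C.adj x y ∧ C.adj y z := by
  obtain ⟨g, rfl, rfl⟩ := trN non0 h
  exact ⟨_, C.inv g C.h01, C.inv g C.h12⟩

/-- an edge among the non-neighbours -/
theorem exEdge (y : X) : ∃ x z, C.non y x ∧ C.non y z ∧ C.adj x z := by
  obtain ⟨x, y', z, h1, h2, h3, h4, h5⟩ := C.exP2
  obtain ⟨g, rfl⟩ := C.trans y' y
  exact ⟨_, _, non_inv g (non_symm ⟨h1, h2⟩), non_inv g ⟨h3, h4⟩, C.inv g h5⟩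

theorem K_fix {g : G} {x : X} (h : g ∈ C.K x) : g • x = x := (C.memK.1 h).1

theorem K_eq_one {g : G} {x y : X} (h : g ∈ C.K x) (hxy : C.adj x y) (hy : g • y = y) : g = 1 := by
  rcases (C.memK.1 h).2 with h | h
  · exact h
  · exact absurd hy (h y hxy)

theorem conjK {g : G} {x : X} (h : G) (hg : g ∈ C.K x) : h * g * h⁻¹ ∈ C.K (h • x) := by
  refine C.memK.2 ⟨by rw [mul_smul, mul_smul, inv_smul_smul, K_fix hg], ?_⟩
  by_cases h1 : g = 1
  · left; simp [h1]
  · right
    intro y hy e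
    apply h1
    refine K_eq_one hg (y := h⁻¹ • y) (by simpa using C.inv h⁻¹ hy) ?_
    rw [mul_smul, mul_smul] at e
    rw [eq_inv_smul_iff, e]

theorem conjK_iff {g : G} {x : X} (h : G) : g ∈ C.K x ↔ h * g * h⁻¹ ∈ C.K (h • x) :=
  ⟨conjK h, fun hg => by simpa [mul_assoc] using conjK h⁻¹ hg⟩

theorem conjK' {g h : G} {x : X} (hh : h • x = x) (hg : g ∈ C.K x) : h * g * h⁻¹ ∈ C.K x := by
  have := conjK h hg; rwa [hh] at this

theorem cardK (x : X) : Nat.card (C.K x) = C.k := by
  obtain ⟨g, rfl⟩ := C.trans C.x0 x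
  exact (r3_card_conj _ _ g fun _ => conjK_iff g).symm

theorem St_conj (h : G) (x y : X) : Nat.card (St G x y) = Nat.card (St G (h • x) (h • y)) :=
  r3_card_conj _ _ h fun g => by simp [mul_smul]

theorem cardE {x y : X} (h : C.adj x y) : Nat.card (St G x y) = C.m := by
  obtain ⟨g, rfl, rfl⟩ := C.trAdj C.h01 h
  exact (St_conj g _ _).symm

theorem cardU {x y : X} (h : C.non x y) : Nat.card (St G x y) = C.u := by
  obtain ⟨g, rfl, rfl⟩ := trN non0 h
  exact (St_conj g _ _).symm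

theorem card_nb (x : X) : (C.nb x).card = C.k := by
  obtain ⟨y, hy⟩ := exAdj (C := C) x
  have := r3_card_of_trans (C.K x) (C.nb x) (y := y)
    (fun g hg => mem_nb.2 (by have := C.inv g hy; rwa [K_fix hg] at this))
    (fun z hz => C.Kreg hy (mem_nb.1 hz))
  have hb : C.K x ⊓ stabilizer G y = ⊥ := by
    rw [eq_bot_iff]; intro g hg; exact K_eq_one hg.1 hy hg.2
  rw [hb, cardK] at this
  simpa using this.symm

theorem card_nn (x : X) : (C.nn x).card = C.l := by
  classical
  obtain ⟨g, rfl⟩ := C.trans C.x0 x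
  refine (card_bij (fun y _ => g • y) (fun y hy => mem_nn.2 (non_inv g (mem_nn.1 hy)))
    (fun a _ b _ e => smul_left_cancel g e) fun y hy => ⟨g⁻¹ • y, ?_, by simp⟩).symm
  have := non_inv g⁻¹ (mem_nn.1 hy)
  simpa using this

theorem card_stab (x : X) : Nat.card (stabilizer G x) = C.k * C.m := by
  obtain ⟨y, hy⟩ := exAdj (C := C) x
  have := r3_card_of_trans (stabilizer G x) (C.nb x) (y := y)
    (fun g hg => mem_nb.2 (by have := C.inv g hy; rwa [mem_stabilizer_iff.1 hg] at this))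
    (fun z hz => by
      obtain ⟨g, hg, e⟩ := C.Kreg hy (mem_nb.1 hz); exact ⟨g, K_fix hg, e⟩)
  rw [this, card_nb, cardE hy]

theorem lu_eq : C.l * C.u = C.k * C.m := by
  have := r3_card_of_trans (stabilizer G C.x0) (C.nn C.x0) (y := C.z0)
    (fun g hg => mem_nn.2 (by have := non_inv g (non0 (C := C)); rwa [mem_stabilizer_iff.1 hg] at this))
    (fun z hz => by
      obtain ⟨g, hg, e⟩ := trN non0 (mem_nn.1 hz); exact ⟨g, hg, e⟩)
  rw [card_stab (C := C), card_nn, cardU non0] at this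
  exact this.symm

theorem card_G : Nat.card G = Fintype.card X * (C.k * C.m) := by
  classical
  have := r3_card_of_trans (⊤ : Subgroup G) (univ : Finset X) (y := C.x0) (fun _ _ => mem_univ _)
    (fun z _ => by obtain ⟨g, e⟩ := C.trans C.x0 z; exact ⟨g, trivial, e⟩)
  rw [top_inf_eq, card_stab (C := C), Subgroup.card_top] at this
  simpa using this

theorem card_X : Fintype.card X = 1 + C.k + C.l := by
  classical
  have h : (univ : Finset X) = insert C.x0 (C.nb C.x0 ∪ C.nn C.x0) := by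
    ext y
    simp only [mem_univ, mem_insert, mem_union, mem_nb, mem_nn, true_iff]
    rcases tri (C := C) C.x0 y with h | h | h
    · exact Or.inl h.symm
    · exact Or.inr (Or.inl h)
    · exact Or.inr (Or.inr h)
  rw [← card_univ, h, card_insert_of_notMem, card_union_of_disjoint, card_nb, card_nn]
  · ring
  · rw [disjoint_left]; intro y h1 h2; exact (mem_nn.1 h2).2 (mem_nb.1 h1)
  · simp only [mem_union, mem_nb, mem_nn, not_or]
    exact ⟨C.irrefl _, fun h => h.1 rfl⟩

theorem two_le_m : 2 ≤ C.m := by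
  obtain ⟨g, h1, h2, h3⟩ := C.exFix
  have : Nontrivial (St G C.x0 C.y0) := ⟨⟨⟨g, h2, h3⟩, 1, fun e => h1 (congrArg Subtype.val e)⟩⟩
  exact Finite.one_lt_card

theorem k_pos : 0 < C.k := Nat.card_pos
theorem u_pos : 0 < C.u := Nat.card_pos

theorem m_dvd : C.m ∣ C.k - 1 := by
  classical
  have := r3_dvd_of_semireg (St G C.x0 C.y0) ((C.nb C.x0).erase C.y0)
    (fun g hg z hz => by
      rw [mem_erase, mem_nb] at hz ⊢
      refine ⟨fun e => hz.1 (smul_left_cancel g (e.trans hg.2.symm)), ?_⟩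
      have := C.inv g hz.2; rwa [hg.1] at this)
    (fun g hg z hz e => by
      rw [mem_erase, mem_nb] at hz
      exact C.frob C.h01 hz.2 hz.1.symm hg.1 hg.2 e)
  rwa [card_erase_of_mem (mem_nb.2 C.h01), card_nb] at this

theorem two_le_k : 2 ≤ C.k := by
  classical
  have h : ({C.x0, C.z0} : Finset X) ⊆ C.nb C.y0 := by
    intro y hy
    rcases mem_insert.1 hy with rfl | hy
    · exact mem_nb.2 (C.symm C.h01)
    · rw [mem_singleton.1 hy]; exact mem_nb.2 C.h12
  have := card_le_card h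
  rwa [card_pair C.h02, card_nb] at this

theorem m_lt_k : C.m < C.k := by
  have h1 := two_le_k (C := C)
  have := Nat.le_of_dvd (by omega) (m_dvd (C := C))
  omega

theorem cop : Nat.Coprime C.k C.m := by
  obtain ⟨r, hr⟩ := m_dvd (C := C)
  have h1 := two_le_k (C := C)
  have : C.k = 1 + C.m * r := by omega
  rw [this]
  simp

theorem pow_k {g : G} {x : X} (h : g ∈ C.K x) : g ^ C.k = 1 := by
  have := pow_card_eq_one' (G := C.K x) (x := ⟨g, h⟩)
  rw [cardK] at this
  exact congrArg Subtype.val this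

theorem pow_m {g : G} {x y : X} (hxy : C.adj x y) (hx : g • x = x) (hy : g • y = y) :
    g ^ C.m = 1 := by
  have := pow_card_eq_one' (G := St G x y) (x := ⟨g, hx, hy⟩)
  rw [cardE hxy] at this
  exact congrArg Subtype.val this

theorem eq_one_of_pow {g : G} (h1 : g ^ C.k = 1) (h2 : g ^ C.m = 1) : g = 1 := by
  have := Nat.dvd_gcd (orderOf_dvd_of_pow_eq_one h1) (orderOf_dvd_of_pow_eq_one h2)
  rw [cop] at this
  exact orderOf_eq_one_iff.1 (Nat.dvd_one.1 this)

theorem memK_of_pow {g : G} {x : X} (hx : g • x = x) (h : g ^ C.k = 1) : g ∈ C.K x := by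
  refine C.memK.2 ⟨hx, ?_⟩
  by_cases h1 : g = 1
  · exact Or.inl h1
  · exact Or.inr fun y hy e => h1 (eq_one_of_pow h (pow_m hy hx e))

theorem memK_of_memK {g : G} {x y : X} (h : g ∈ C.K x) (hy : g • y = y) : g ∈ C.K y :=
  memK_of_pow hy (pow_k h)

/-- an element of the stabilizer outside the kernel fixes a neighbour -/
theorem exists_fix_of_notMem {g : G} {x : X} (hx : g • x = x) (h : g ∉ C.K x) :
    ∃ y, C.adj x y ∧ g • y = y := by
  by_contra hc
  push Not at hc
  exact h (C.memK.2 ⟨hx, Or.inr hc⟩)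

theorem memK_of_comm {g y : G} {x : X} (hx : g • x = x) (hy : y ∈ C.K x) (h1 : y ≠ 1)
    (hc : g * y = y * g) : g ∈ C.K x := by
  by_contra h
  obtain ⟨b, hb, e⟩ := exists_fix_of_notMem hx h
  have h2 : C.adj x (y • b) := by have := C.inv y hb; rwa [K_fix hy] at this
  have : g = 1 := C.frob hb h2 (fun e' => h1 (K_eq_one hy hb e'.symm)) hx e
    (by rw [← mul_smul, hc, mul_smul, e])
  exact h (this ▸ (C.K x).one_mem)

/-- matching: a nontrivial element of order dividing `m` fixes a unique neighbour of each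
fixed point -/
theorem partner {g : G} (h1 : g ≠ 1) (hm : g ^ C.m = 1) {x : X} (hx : g • x = x) :
    ∃ y, C.adj x y ∧ g • y = y ∧ ∀ z, C.adj x z → g • z = z → z = y := by
  obtain ⟨y, hy, e⟩ := exists_fix_of_notMem (C := C) hx fun h => h1 (eq_one_of_pow (pow_k h) hm)
  exact ⟨y, hy, e, fun z hz e' => by_contra fun hne => h1 (C.frob hz hy hne hx e' e)⟩

/-- every element of the stabilizer is a product of a kernel element and one fixing `y` -/
theorem decomp {g : G} {x y : X} (hxy : C.adj x y) (hx : g • x = x) :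
    ∃ a ∈ C.K x, ∃ e, e • x = x ∧ e • y = y ∧ g = a * e := by
  obtain ⟨a, ha, e⟩ := C.Kreg hxy (show C.adj x (g • y) by have := C.inv g hxy; rwa [hx] at this)
  refine ⟨a, ha, a⁻¹ * g, ?_, ?_, by simp⟩
  · rw [mul_smul, hx, inv_smul_eq_iff, K_fix ha]
  · rw [mul_smul, inv_smul_eq_iff, e]

theorem even_km : Even C.k ∨ Even C.m := by
  by_contra h
  push Not at h
  rw [Nat.not_even_iff_odd, Nat.not_even_iff_odd] at h
  have h1 : Odd (C.l * C.u) := by rw [lu_eq]; exact h.1.mul h.2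
  have h2 : Odd C.l := (Nat.odd_mul.1 h1).1
  have h3 := C.even
  rw [card_G (C := C), card_X (C := C)] at h3
  have h4 : Odd (1 + C.k + C.l) := by
    obtain ⟨a, ha⟩ := h.1; obtain ⟨b, hb⟩ := h2; exact ⟨a + b + 1, by omega⟩
  exact (Nat.not_even_iff_odd.2 (h4.mul (h.1.mul h.2))) h3

end Ctx

end Cfsg.Lib.R3F
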