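import Cfsg.Agent.Lib.R3F.Even

/-! Eigenvalue multiplicities of the rank three graph on the fixed space of a subgroup. -/

set_option autoImplicit false

namespace Cfsg.Lib.R3F

open MulAction Subgroup Finset

theorem r3_trace_nat {X : Type*} [Fintype X] [DecidableEq X] (M : Matrix X X ℝ) (h : M * M = M) :
    ∃ N : ℕ, M.trace = N := by
  have h1 : IsIdempotentElem (Matrix.toLin' M) := by
    change Matrix.toLin' M ∘ₗ Matrix.toLin' M = _
    rw [← Matrix.toLin'_mul, h]
  exact ⟨_, by rw [← Matrix.trace_toLin'_eq, (LinearMap.IsIdempotentElem.isProj_range _ h1).trace]⟩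

namespace Ctx

variable {G X : Type*} [Group G] [Finite G] [Fintype X] [MulAction G X] (C : Ctx G X)

open Classical in
noncomputable def lam : ℕ := (C.nb C.x0 ∩ C.nb C.y0).card
open Classical in
noncomputable def mu : ℕ := (C.nb C.x0 ∩ C.nb C.z0).card
open Classical in
/-- number of fixed points -/
noncomputable def a0 (_C : Ctx G X) (g : G) : ℕ := (univ.filter fun x : X => g • x = x).card
open Classical in
/-- number of points moved to a neighbour -/
noncomputable def a1 (g : G) : ℕ := (univ.filter fun x : X => C.adj x (g • x)).card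

variable {C}

theorem card_common [DecidableEq X] (g : G) (x y : X) :
    (C.nb x ∩ C.nb y).card = (C.nb (g • x) ∩ C.nb (g • y)).card := by
  refine card_bij (fun p _ => g • p) (fun p hp => ?_) (fun a _ b _ e => smul_left_cancel g e)
    fun p hp => ⟨g⁻¹ • p, ?_, by simp⟩
  · simp only [Finset.mem_inter, mem_nb] at hp ⊢
    exact ⟨C.inv g hp.1, C.inv g hp.2⟩
  · simp only [Finset.mem_inter, mem_nb] at hp ⊢
    exact ⟨by simpa using C.inv g⁻¹ hp.1, by simpa using C.inv g⁻¹ hp.2⟩

theorem card_lam [DecidableEq X] {x y : X} (h : C.adj x y) : (C.nb x ∩ C.nb y).card = C.lam := by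
  obtain ⟨g, rfl, rfl⟩ := C.trAdj C.h01 h
  rw [← card_common, lam]; congr; exact Subsingleton.elim _ _

theorem card_mu [DecidableEq X] {x y : X} (h : C.non x y) : (C.nb x ∩ C.nb y).card = C.mu := by
  obtain ⟨g, rfl, rfl⟩ := trN non0 h
  rw [← card_common, mu]; congr; exact Subsingleton.elim _ _

theorem mu_pos : 0 < C.mu := by
  classical
  rw [← card_mu non0]
  exact card_pos.2 ⟨C.y0, Finset.mem_inter.2 ⟨mem_nb.2 C.h01, mem_nb.2 (C.symm C.h12)⟩⟩

theorem mu_le : C.mu ≤ C.k := by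
  classical
  rw [← card_mu non0, ← card_nb C.x0]; exact card_le_card inter_subset_left

theorem params : ∃ s, C.k = 1 + C.lam + C.m * s ∧ C.k * (C.m * s) = C.l * C.mu := by
  classical
  have key : ∀ {x b : X}, C.adj x b → C.k = 1 + C.lam + (C.nb b ∩ C.nn x).card := by
    intro x b hb
    have e : C.nb b = insert x ((C.nb x ∩ C.nb b) ∪ (C.nb b ∩ C.nn x)) := by
      ext y
      simp only [mem_nb, mem_insert, mem_union, Finset.mem_inter, mem_nn]
      constructor
      · intro h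
        rcases tri (C := C) x y with e | e | e
        · exact Or.inl e.symm
        · exact Or.inr (Or.inl ⟨e, h⟩)
        · exact Or.inr (Or.inr ⟨h, e⟩)
      · rintro (rfl | h | h)
        · exact C.symm hb
        · exact h.2
        · exact h.1
    have := congrArg card e
    rw [card_nb, card_insert_of_notMem, card_union_of_disjoint, card_lam hb] at this
    · omega
    · rw [disjoint_left]
      intro y h1 h2
      exact (mem_nn.1 (Finset.mem_inter.1 h2).2).2 (mem_nb.1 (Finset.mem_inter.1 h1).1)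
    · simp only [mem_union, Finset.mem_inter, mem_nb, mem_nn, not_or, not_and]
      exact ⟨fun h => absurd h (C.irrefl _), fun _ h => h.1 rfl⟩
  obtain ⟨s, hs⟩ := r3_dvd_of_semireg (St G C.x0 C.y0) (C.nb C.y0 ∩ C.nn C.x0)
    (fun g hg z hz => by
      simp only [Finset.mem_inter, mem_nb, mem_nn] at hz ⊢
      have h1 := C.inv g hz.1
      have h2 := non_inv g hz.2
      rw [hg.2] at h1; rw [hg.1] at h2
      exact ⟨h1, h2⟩)
    (fun g hg z hz e => by
      simp only [Finset.mem_inter, mem_nb, mem_nn] at hz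
      exact C.frob (C.symm C.h01) hz.1 hz.2.1 hg.2 hg.1 e)
  rw [cardE C.h01] at hs
  have h1 := key C.h01
  refine ⟨s, hs ▸ h1, ?_⟩
  have := card_mul_eq_card_mul (s := C.nb C.x0) (t := C.nn C.x0) (fun b c => C.adj b c)
    (m := C.m * s) (n := C.mu) (fun b hb => by
      have h2 := key (mem_nb.1 hb)
      have : (C.nb b ∩ C.nn C.x0).card = C.m * s := by omega
      rw [← this]; congr 1
      ext c; simp [and_comm])
    (fun c hc => by
      rw [← card_mu (mem_nn.1 hc)]; congr 1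
      ext b
      simp only [mem_bipartiteBelow, mem_nb, Finset.mem_inter]
      exact and_congr_right fun _ => ⟨C.symm, C.symm⟩)
  rwa [card_nb, card_nn] at this

theorem eigen_aux (θ τ : ℝ) (hne : θ ≠ τ) (hs : θ + τ = C.lam - C.mu) (hp : θ * τ = C.mu - C.k)
    (Y : Subgroup G) [Fintype Y] : ∃ f : ℕ, (Fintype.card Y : ℝ) * (θ - τ) * f =
      ∑ y : Y, (C.a1 y : ℝ) - τ * ∑ y : Y, (C.a0 y : ℝ) - (C.k - τ) * Fintype.card Y := by
  classical
  set n : ℝ := (Fintype.card X : ℝ) with hn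
  have hn0 : n ≠ 0 := by
    rw [hn, card_X (C := C)]; positivity
  have hY : (Fintype.card Y : ℝ) ≠ 0 := by exact_mod_cast Fintype.card_ne_zero
  let A : Matrix X X ℝ := Matrix.of fun x y => if C.adj x y then 1 else 0
  let J : Matrix X X ℝ := Matrix.of fun _ _ => 1
  let P : G → Matrix X X ℝ := fun g => Matrix.of fun x y => if g • y = x then 1 else 0
  have hPM : ∀ g (M : Matrix X X ℝ), P g * M = Matrix.of fun x y => M (g⁻¹ • x) y := by
    intro g M
    ext x y
    simp only [P, Matrix.mul_apply, Matrix.of_apply, ite_mul, one_mul, zero_mul,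
      ← eq_inv_smul_iff]
    rw [sum_ite_eq']; simp
  have hMP : ∀ g (M : Matrix X X ℝ), M * P g = Matrix.of fun x y => M x (g • y) := by
    intro g M
    ext x y
    simp only [P, Matrix.mul_apply, Matrix.of_apply, mul_ite, mul_one, mul_zero]
    rw [sum_ite_eq]; simp
  have hPP : ∀ g h, P g * P h = P (g * h) := fun g h => by
    rw [hMP]; ext x y; simp [P, mul_smul]
  have hPA : ∀ g, P g * A = A * P g := fun g => by
    rw [hPM, hMP]; ext x y
    simp only [A, Matrix.of_apply]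
    rw [← inv_iff g, smul_inv_smul]
  have hPJ : ∀ g, P g * J = J := fun g => by rw [hPM]; rfl
  have hJP : ∀ g, J * P g = J := fun g => by rw [hMP]; rfl
  have hsum : ∀ x, ∑ y, (if C.adj x y then (1 : ℝ) else 0) = C.k := fun x => by
    rw [sum_boole, ← card_nb x, nb]
  have hAJ : A * J = (C.k : ℝ) • J := by
    ext x y; simp only [A, J, Matrix.mul_apply, Matrix.of_apply, mul_one, Matrix.smul_apply,
      smul_eq_mul, hsum]
  have hJA : J * A = (C.k : ℝ) • J := by
    ext x y
    simp only [A, J, Matrix.mul_apply, Matrix.of_apply, one_mul, mul_one, Matrix.smul_apply,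
      smul_eq_mul]
    rw [← hsum y]
    exact sum_congr rfl fun z _ => if_congr ⟨C.symm, C.symm⟩ rfl rfl
  have hJJ : J * J = n • J := by
    ext x y; simp [J, Matrix.mul_apply, hn]
  have hAA : A * A = (C.k - C.mu : ℝ) • (1 : Matrix X X ℝ) + (C.lam - C.mu : ℝ) • A +
      (C.mu : ℝ) • J := by
    ext x y
    have e : (A * A) x y = (C.nb x ∩ C.nb y).card := by
      simp only [A, Matrix.mul_apply, Matrix.of_apply, ite_mul, one_mul, zero_mul, ← ite_and]
      rw [sum_boole]; congr 2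
      ext z
      simp only [mem_filter, mem_univ, true_and, Finset.mem_inter, mem_nb]
      exact and_congr_right fun _ => ⟨C.symm, C.symm⟩
    rw [e]
    simp only [A, J, Matrix.add_apply, Matrix.smul_apply, Matrix.of_apply, Matrix.one_apply,
      smul_eq_mul]
    rcases tri (C := C) x y with h | h | h
    · subst h; rw [inter_self, card_nb]; simp [C.irrefl]
    · rw [card_lam h]; simp [h, adj_ne h]
    · rw [card_mu h]; simp [h.1, h.2]
  have hmn : (C.mu : ℝ) * n = (C.k - τ) * (C.k - θ) := by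
    obtain ⟨s, h1, h2⟩ := params (C := C)
    have h1' : (C.k : ℝ) = 1 + C.lam + C.m * s := by exact_mod_cast h1
    have h2' : (C.k : ℝ) * (C.m * s) = C.l * C.mu := by exact_mod_cast h2
    rw [hn, card_X (C := C)]
    push_cast
    linear_combination (C.k : ℝ) * hs - hp - h2' - (C.k : ℝ) * h1'
  set c : ℝ := (C.k - τ) / n with hc
  have hcn : c * n = C.k - τ := div_mul_cancel₀ _ hn0
  have hmu : (C.mu : ℝ) = c * (C.k - θ) := by
    apply mul_right_cancel₀ hn0; rw [hmn, mul_right_comm, hcn]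
  let B : Matrix X X ℝ := A - τ • (1 : Matrix X X ℝ) - c • J
  have hBB : B * B = (θ - τ) • B := by
    simp only [B, sub_mul, mul_sub, smul_mul_assoc, mul_smul_comm, one_mul, mul_one, hAA, hAJ, hJA,
      hJJ, smul_sub, smul_smul]
    rw [← hs, show (C.k - C.mu : ℝ) = -(θ * τ) by rw [hp]; ring, hmu,
      show c * (c * n) = c * (C.k - τ) by rw [hcn]]
    module
  let Q : Matrix X X ℝ := ∑ y : Y, P y
  have hQQ : Q * Q = (Fintype.card Y : ℝ) • Q := by
    simp only [Q, sum_mul_sum, hPP]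
    rw [← card_univ, Nat.cast_smul_eq_nsmul, ← sum_const]
    refine sum_congr rfl fun y _ => ?_
    exact Fintype.sum_equiv (Equiv.mulLeft y) _ _ fun _ => rfl
  have hPB : ∀ g, B * P g = P g * B := fun g => by
    simp only [B, sub_mul, mul_sub, smul_mul_assoc, mul_smul_comm, one_mul, mul_one, hPA, hPJ, hJP]
  have hQB : B * Q = Q * B := by
    simp only [Q, Finset.mul_sum, Finset.sum_mul, hPB]
  obtain ⟨f, hf⟩ := r3_trace_nat (((Fintype.card Y : ℝ) * (θ - τ))⁻¹ • (Q * B)) (by
    rw [smul_mul_smul_comm, mul_assoc Q B, ← mul_assoc B, hQB, mul_assoc Q B, ← mul_assoc Q Q, hQQ,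
      hBB, smul_mul_smul_comm, smul_smul, mul_assoc,
      inv_mul_cancel₀ (mul_ne_zero hY (sub_ne_zero.2 hne)), mul_one])
  refine ⟨f, ?_⟩
  rw [← hf, Matrix.trace_smul, smul_eq_mul, ← mul_assoc,
    mul_inv_cancel₀ (mul_ne_zero hY (sub_ne_zero.2 hne)), one_mul]
  have t1 : ∀ g, (P g * A).trace = C.a1 g := fun g => by
    rw [hPA, hMP]; simp only [Matrix.trace, Matrix.diag, Matrix.of_apply, A]
    rw [sum_boole, a1]
  have t0 : ∀ g, (P g).trace = C.a0 g := fun g => by
    simp only [Matrix.trace, Matrix.diag, Matrix.of_apply, P]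
    rw [sum_boole, a0]
  have tJ : J.trace = n := by simp [J, Matrix.trace, hn]
  have tB : ∀ g, (P g * B).trace = C.a1 g - τ * C.a0 g - (C.k - τ) := fun g => by
    simp only [B, mul_sub, mul_smul_comm, mul_one, hPJ, Matrix.trace_sub, Matrix.trace_smul, t1, t0,
      tJ, smul_eq_mul, hcn]
  simp only [Q, Finset.sum_mul, Matrix.trace_sum, tB, sum_sub_distrib, Finset.mul_sum, sum_const,
    card_univ, nsmul_eq_mul]
  ring

theorem eigen_real (θ τ : ℝ) (hne : θ ≠ τ) (hs : θ + τ = C.lam - C.mu) (hp : θ * τ = C.mu - C.k)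
    (Y : Subgroup G) [Fintype Y] : ∃ f g : ℕ,
      ∑ y : Y, (C.a0 y : ℝ) = Fintype.card Y * (1 + f + g) ∧
      ∑ y : Y, (C.a1 y : ℝ) = Fintype.card Y * (C.k + θ * f + τ * g) := by
  obtain ⟨f, hf⟩ := eigen_aux θ τ hne hs hp Y
  obtain ⟨g, hg⟩ := eigen_aux τ θ hne.symm (by rw [add_comm, hs]) (by rw [mul_comm, hp]) Y
  have h0 : ∑ y : Y, (C.a0 y : ℝ) = Fintype.card Y * (1 + f + g) := by
    apply mul_left_cancel₀ (sub_ne_zero.2 hne)
    linear_combination hg - hf
  exact ⟨f, g, h0, by rw [h0] at hf; linear_combination -hf⟩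

theorem a0_one : C.a0 1 = Fintype.card X := by simp [a0]
theorem a1_one : C.a1 1 = 0 := by simp [a1, C.irrefl]

theorem eigen_bot (θ τ : ℝ) (hne : θ ≠ τ) (hs : θ + τ = C.lam - C.mu) (hp : θ * τ = C.mu - C.k) :
    ∃ f g : ℕ, C.k + C.l = f + g ∧ C.k + θ * f + τ * g = 0 := by
  classical
  obtain ⟨f, g, h1, h2⟩ := eigen_real θ τ hne hs hp ⊥
  simp only [univ_unique, sum_singleton, Fintype.card_unique, Nat.cast_one, one_mul] at h1 h2
  rw [show ((default : (⊥ : Subgroup G)) : G) = 1 from mem_bot.1 (default : (⊥ : Subgroup G)).2]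
    at h1 h2
  rw [a0_one, card_X (C := C)] at h1
  rw [a1_one] at h2
  refine ⟨f, g, ?_, by simpa using h2.symm⟩
  have : 1 + C.k + C.l = 1 + f + g := by exact_mod_cast h1
  omega

theorem eigen_int (hR : 2 * (C.k : ℤ) + (C.k + C.l) * (C.lam - C.mu) ≠ 0) :
    ∃ θ τ : ℤ, τ < θ ∧ θ + τ = C.lam - C.mu ∧ θ * τ = C.mu - C.k := by
  have hmu := mu_le (C := C)
  obtain ⟨s, h1, -⟩ := params (C := C)
  obtain ⟨D, hD⟩ : ∃ D : ℕ, (D : ℤ) = ((C.lam : ℤ) - C.mu) ^ 2 + 4 * (C.k - C.mu) :=
    ⟨_, Int.toNat_of_nonneg (by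
      have : (C.mu : ℤ) ≤ C.k := by exact_mod_cast hmu
      positivity)⟩
  have hD0 : 0 < D := by
    have h2 : (C.mu : ℤ) ≤ C.k := by exact_mod_cast hmu
    have h3 : (C.lam : ℤ) < C.k := by
      have : C.lam < C.k := by omega
      exact_mod_cast this
    have : (0 : ℤ) < D := by
      rcases h2.lt_or_eq with h | h
      · nlinarith [sq_nonneg ((C.lam : ℤ) - C.mu)]
      · rw [hD, h]; nlinarith
    exact_mod_cast this
  have hDR : (D : ℝ) = ((C.lam : ℝ) - C.mu) ^ 2 + 4 * (C.k - C.mu) := by exact_mod_cast hD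
  have hδ : 0 < √(D : ℝ) := Real.sqrt_pos.2 (by exact_mod_cast hD0)
  have hδ2 : √(D : ℝ) ^ 2 = D := Real.sq_sqrt (by positivity)
  obtain ⟨f, g, e1, e2⟩ := eigen_bot (C := C) ((C.lam - C.mu + √(D : ℝ)) / 2)
    ((C.lam - C.mu - √(D : ℝ)) / 2) (by intro e; linarith) (by ring)
    (by linear_combination -hδ2 / 4 - hDR / 4)
  have e1' : (C.k : ℝ) + C.l = f + g := by exact_mod_cast e1
  have hR' : 2 * (C.k : ℝ) + (C.k + C.l) * (C.lam - C.mu) ≠ 0 := by exact_mod_cast hR
  have e3 : ((g : ℝ) - f) * √(D : ℝ) = 2 * (C.k : ℝ) + (C.k + C.l) * (C.lam - C.mu) := by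
    rw [e1']; linear_combination -2 * e2
  have hgf : (g : ℝ) - f ≠ 0 := fun e => hR' (by rw [← e3, e, zero_mul])
  have hsq : IsSquare D := by
    by_contra hc
    refine irrational_sqrt_natCast_iff.2 hc ⟨(2 * (C.k : ℚ) + (C.k + C.l) * (C.lam - C.mu)) /
      ((g : ℚ) - f), ?_⟩
    push_cast
    rw [← e3, mul_div_cancel_left₀ _ hgf]
  obtain ⟨d, hd⟩ := hsq
  have hd' : (d : ℤ) * d = ((C.lam : ℤ) - C.mu) ^ 2 + 4 * (C.k - C.mu) := by
    rw [← hD, hd]; push_cast; ring
  have hd0 : (0 : ℤ) < d := by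
    rcases Nat.eq_zero_or_pos d with rfl | h
    · simp at hd; omega
    · exact_mod_cast h
  have hev : Even ((C.lam : ℤ) - C.mu + d) := by
    by_contra h
    rw [Int.not_even_iff_odd] at h
    obtain ⟨r, hr⟩ := h
    have : (2 * r + 1) * (2 * r + 1 - 2 * d) = 4 * ((C.mu : ℤ) - C.k) := by
      rw [← hr]; linear_combination -hd'
    have h2 : Odd ((2 * r + 1) * (2 * r + 1 - 2 * (d : ℤ))) :=
      Odd.mul ⟨r, rfl⟩ ⟨r - d, by ring⟩
    rw [this] at h2
    obtain ⟨w, hw⟩ := h2
    omega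
  obtain ⟨r, hr⟩ := hev
  refine ⟨r, r - d, by omega, by omega, ?_⟩
  have : (C.lam : ℤ) - C.mu = 2 * r - d := by omega
  rw [this] at hd'
  nlinarith

end Ctx

end Cfsg.Lib.R3F
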